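import Mathlib
import Cfsg.Prelude.Def_BaumannBlocks
import Cfsg.Agent.H56.CD
import Cfsg.Agent.H56.CDP

/-!
# Centrally large subgroups (helper56)

For a finite group `G`: `IsCentrallyLarge Q ↔ IsCentralizerLarge Q ∧ C(Q) ≤ Q`, joins of centrally
large subgroups are centrally large, minimal centrally large subgroups exist.
-/

set_option autoImplicit false

namespace Cfsg.Agent.H56

open Subgroup
open scoped Pointwise

variable {G : Type*} [Group G]

/-- `Z(R) = R ⊓ C(R)` -/
theorem map_center_subtype (R : Subgroup G) :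
    (Subgroup.center ↥R).map R.subtype = R ⊓ centralizer (R : Set G) := by
  ext x
  rw [Subgroup.mem_map, Subgroup.mem_inf, Subgroup.mem_centralizer_iff]
  constructor
  · rintro ⟨y, hy, rfl⟩
    refine ⟨y.2, fun a ha => ?_⟩
    have := Subgroup.mem_center_iff.1 hy ⟨a, ha⟩
    exact congrArg Subtype.val this
  · rintro ⟨hx, hc⟩
    refine ⟨⟨x, hx⟩, ?_, rfl⟩
    rw [Subgroup.mem_center_iff]
    intro a
    exact Subtype.ext (hc a a.2)

theorem card_center_subgroup (R : Subgroup G) :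
    Nat.card (Subgroup.center ↥R) = Nat.card ↥(R ⊓ centralizer (R : Set G)) := by
  rw [← map_center_subtype, Subgroup.card_map_of_injective R.subtype_injective]

/-- the "central measure" `|R| |Z(R)|`. -/
noncomputable def cmeas (R : Subgroup G) : ℕ := Nat.card R * Nat.card ↥(R ⊓ centralizer (R : Set G))

theorem cmeas_def (R : Subgroup G) :
    cmeas R = Nat.card R * Nat.card ↥(R ⊓ centralizer (R : Set G)) := rfl

theorem cmeas_eq (R : Subgroup G) : cmeas R = Nat.card R * Nat.card (Subgroup.center ↥R) := by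
  rw [cmeas_def, card_center_subgroup]

theorem cmeas_le_meas [Finite G] (R : Subgroup G) : cmeas R ≤ meas R := by
  rw [cmeas_def, meas_def]
  exact Nat.mul_le_mul_left _ (Subgroup.card_le_of_le inf_le_right)

theorem cmeas_eq_meas_of_le {R : Subgroup G} (h : centralizer (R : Set G) ≤ R) :
    cmeas R = meas R := by
  rw [cmeas_def, meas_def, inf_eq_right.2 h]

theorem isCentrallyLarge_iff (R : Subgroup G) :
    Cfsg.IsCentrallyLarge R ↔ cmeas R = Cfsg.maxCentralProduct G := by
  unfold Cfsg.IsCentrallyLarge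
  rw [cmeas_eq]

theorem bddAbove_cmeas_set [Finite G] :
    BddAbove {k : ℕ | ∃ R : Subgroup G, Nat.card ↥R * Nat.card ↥(Subgroup.center ↥R) = k} := by
  refine ⟨Nat.card G * Nat.card G, ?_⟩
  rintro k ⟨R, rfl⟩
  refine Nat.mul_le_mul (Subgroup.card_le_card_group R) ?_
  exact (Subgroup.card_le_card_group _).trans (Subgroup.card_le_card_group R)

theorem cmeas_le_maxCentralProduct [Finite G] (X : Subgroup G) :
    cmeas X ≤ Cfsg.maxCentralProduct G := by
  rw [cmeas_eq]
  exact le_csSup bddAbove_cmeas_set ⟨X, rfl⟩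

theorem exists_isCentrallyLarge [Finite G] : ∃ X : Subgroup G, Cfsg.IsCentrallyLarge X := by
  have hne : {k : ℕ | ∃ R : Subgroup G,
      Nat.card ↥R * Nat.card ↥(Subgroup.center ↥R) = k}.Nonempty := ⟨_, ⊥, rfl⟩
  obtain ⟨R, hR⟩ := Nat.sSup_mem hne bddAbove_cmeas_set
  exact ⟨R, hR⟩

/-- `f = f₁`. -/
theorem maxCentralProduct_eq [Finite G] :
    Cfsg.maxCentralProduct G = Cfsg.maxCentralizerProduct G := by
  apply le_antisymm
  · obtain ⟨X, hX⟩ := exists_isCentrallyLarge (G := G)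
    rw [isCentrallyLarge_iff] at hX
    rw [← hX]
    exact (cmeas_le_meas X).trans (meas_le_maxCentralizerProduct X)
  · obtain ⟨X, hX⟩ := exists_isCentralizerLarge (G := G)
    have hX' : meas X = Cfsg.maxCentralizerProduct G := hX
    have hM := meas_le_maxCentralizerProduct (G := G)
    obtain ⟨h1, h2⟩ := cd_centralizer hM hX'
    obtain ⟨h3, -, -, -, -⟩ := cd_core hM hX' h1
    -- Y = X ⊔ C(X) has C(Y) ≤ Y
    have h4 : centralizer ((X ⊔ centralizer (X : Set G) : Subgroup G) : Set G) ≤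
        X ⊔ centralizer (X : Set G) := by
      rw [centralizer_sup', h2]
      exact inf_le_right.trans le_sup_left
    rw [← h3, ← cmeas_eq_meas_of_le h4]
    exact cmeas_le_maxCentralProduct _

/-- A centrally large subgroup has largest Chermak–Delgado measure and contains its centralizer. -/
theorem isCentrallyLarge_iff' [Finite G] (Q : Subgroup G) :
    Cfsg.IsCentrallyLarge Q ↔ Cfsg.IsCentralizerLarge Q ∧ centralizer (Q : Set G) ≤ Q := by
  rw [isCentrallyLarge_iff, isCentralizerLarge_iff, maxCentralProduct_eq]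
  constructor
  · intro h
    have h1 : meas Q = Cfsg.maxCentralizerProduct G :=
      le_antisymm (meas_le_maxCentralizerProduct Q) (h ▸ cmeas_le_meas Q)
    refine ⟨h1, ?_⟩
    have h2 : cmeas Q = meas Q := h.trans h1.symm
    rw [cmeas_def, meas_def] at h2
    have h3 : Nat.card ↥(Q ⊓ centralizer (Q : Set G)) = Nat.card ↥(centralizer (Q : Set G)) :=
      Nat.eq_of_mul_eq_mul_left Nat.card_pos h2
    have h4 : Q ⊓ centralizer (Q : Set G) = centralizer (Q : Set G) :=
      Subgroup.eq_of_le_of_card_ge inf_le_right (le_of_eq h3.symm)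
    rw [← h4]
    exact inf_le_left
  · rintro ⟨h1, h2⟩
    rw [cmeas_eq_meas_of_le h2, h1]

theorem cl_meas_eq [Finite G] {Q : Subgroup G} (h : Cfsg.IsCentrallyLarge Q) :
    meas Q = Cfsg.maxCentralizerProduct G := ((isCentrallyLarge_iff' Q).1 h).1

theorem cl_centralizer_le [Finite G] {Q : Subgroup G} (h : Cfsg.IsCentrallyLarge Q) :
    centralizer (Q : Set G) ≤ Q := ((isCentrallyLarge_iff' Q).1 h).2

/-- The join of two centrally large subgroups is centrally large (and equals the product set). -/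
theorem cl_sup [Finite G] {Q R : Subgroup G} (hQ : Cfsg.IsCentrallyLarge Q)
    (hR : Cfsg.IsCentrallyLarge R) :
    ((Q ⊔ R : Subgroup G) : Set G) = (Q : Set G) * (R : Set G) ∧ Cfsg.IsCentrallyLarge (Q ⊔ R) := by
  have hM := meas_le_maxCentralizerProduct (G := G)
  obtain ⟨h1, -, h3, -, -⟩ := cd_core hM (cl_meas_eq hQ) (cl_meas_eq hR)
  refine ⟨coe_sup_eq_mul_of_card_eq h3, ?_⟩
  rw [isCentrallyLarge_iff']
  refine ⟨h1, ?_⟩
  rw [centralizer_sup']
  exact inf_le_left.trans ((cl_centralizer_le hQ).trans le_sup_left)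

/-- The join of a nonempty family of centrally large subgroups is centrally large. -/
theorem isCentrallyLarge_sSup [Finite G] {S : Set (Subgroup G)} (hne : S.Nonempty)
    (hS : ∀ R ∈ S, Cfsg.IsCentrallyLarge R) : Cfsg.IsCentrallyLarge (sSup S) := by
  obtain ⟨R₀, hR₀⟩ := hne
  have : Nonempty {T : Subgroup G // Cfsg.IsCentrallyLarge T ∧ T ≤ sSup S} :=
    ⟨⟨R₀, hS R₀ hR₀, le_sSup hR₀⟩⟩
  obtain ⟨⟨T, hT, hTle⟩, hTmax⟩ :=
    Finite.exists_max (fun T : {T : Subgroup G // Cfsg.IsCentrallyLarge T ∧ T ≤ sSup S} => Nat.card T.1)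
  have h1 : sSup S ≤ T := by
    apply sSup_le
    intro R hR
    have h2 := (cl_sup (hS R hR) hT).2
    have h3 : R ⊔ T ≤ sSup S := sup_le (le_sSup hR) hTle
    have h4 := hTmax ⟨R ⊔ T, h2, h3⟩
    have h5 : R ⊔ T = T := (Subgroup.eq_of_le_of_card_ge le_sup_right h4).symm
    rw [← h5]
    exact le_sup_left
  rw [le_antisymm h1 hTle]
  exact hT

/-- Every centrally large subgroup contains a minimal centrally large subgroup. -/
theorem exists_isMinimalCentrallyLarge_le [Finite G] {R : Subgroup G} (hR : Cfsg.IsCentrallyLarge R) :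
    ∃ Q : Subgroup G, Cfsg.IsMinimalCentrallyLarge Q ∧ Q ≤ R := by
  have : Nonempty {T : Subgroup G // Cfsg.IsCentrallyLarge T ∧ T ≤ R} := ⟨⟨R, hR, le_rfl⟩⟩
  obtain ⟨⟨T, hT, hTle⟩, hTmin⟩ :=
    Finite.exists_min (fun T : {T : Subgroup G // Cfsg.IsCentrallyLarge T ∧ T ≤ R} => Nat.card T.1)
  refine ⟨T, ⟨hT, ?_⟩, hTle⟩
  intro R' hR'le hR'
  have h1 := hTmin ⟨R', hR', hR'le.trans hTle⟩
  exact Subgroup.eq_of_le_of_card_ge hR'le h1

theorem exists_isMinimalCentrallyLarge [Finite G] :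
    ∃ Q : Subgroup G, Cfsg.IsMinimalCentrallyLarge Q := by
  obtain ⟨R, hR⟩ := exists_isCentrallyLarge (G := G)
  obtain ⟨Q, hQ, -⟩ := exists_isMinimalCentrallyLarge_le hR
  exact ⟨Q, hQ⟩

theorem isCentrallyLarge_centrallyLargeJoin [Finite G] :
    Cfsg.IsCentrallyLarge (Cfsg.centrallyLargeJoin G) := by
  obtain ⟨R, hR⟩ := exists_isCentrallyLarge (G := G)
  exact isCentrallyLarge_sSup ⟨R, hR⟩ (fun _ h => h)

theorem isCentrallyLarge_minimalCentrallyLargeJoin [Finite G] :
    Cfsg.IsCentrallyLarge (Cfsg.minimalCentrallyLargeJoin G) := by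
  obtain ⟨R, hR⟩ := exists_isMinimalCentrallyLarge (G := G)
  exact isCentrallyLarge_sSup ⟨R, hR⟩ (fun _ h => h.1)

theorem le_centrallyLargeJoin {Q : Subgroup G} (hQ : Cfsg.IsCentrallyLarge Q) :
    Q ≤ Cfsg.centrallyLargeJoin G := le_sSup hQ

end Cfsg.Agent.H56
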