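import Mathlib
import Cfsg.Prelude.Def_BaumannBlocks
import Cfsg.Agent.H56.CD
import Cfsg.Agent.H56.CDP
import Cfsg.Agent.H56.CL

/-!
# Centrally large subgroups and abelian subgroups of largest order (helper56)
-/

set_option autoImplicit false

namespace Cfsg.Agent.H56

open Subgroup
open scoped Pointwise

variable {G : Type*} [Group G]

theorem isMulCommutative_of_le_centralizer {K : Subgroup G} (h : K ≤ centralizer (K : Set G)) :
    IsMulCommutative ↥K := Subgroup.le_centralizer_iff_isMulCommutative.1 h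

theorem le_centralizer_of_isMulCommutative {K : Subgroup G} (h : IsMulCommutative ↥K) :
    K ≤ centralizer (K : Set G) := Subgroup.le_centralizer_iff_isMulCommutative.2 h

theorem mem_maxAbelian_iff (A : Subgroup G) :
    A ∈ Cfsg.maxAbelianSubgroups G ↔
      IsMulCommutative ↥A ∧ ∀ B : Subgroup G, IsMulCommutative ↥B → Nat.card B ≤ Nat.card A := Iff.rfl

theorem exists_maxAbelian [Finite G] : ∃ A : Subgroup G, A ∈ Cfsg.maxAbelianSubgroups G := by
  have hbot : IsMulCommutative ↥(⊥ : Subgroup G) :=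
    isMulCommutative_of_le_centralizer bot_le
  have : Nonempty {B : Subgroup G // IsMulCommutative ↥B} := ⟨⟨⊥, hbot⟩⟩
  obtain ⟨⟨A, hA⟩, hAmax⟩ :=
    Finite.exists_max (fun B : {B : Subgroup G // IsMulCommutative ↥B} => Nat.card B.1)
  exact ⟨A, hA, fun B hB => hAmax ⟨B, hB⟩⟩

/-- `Z(Q) (Q ∩ A)` is abelian when `A` is. -/
theorem center_sup_inf_le_centralizer (Q A : Subgroup G) (hA : A ≤ centralizer (A : Set G)) :
    (Q ⊓ centralizer (Q : Set G)) ⊔ (Q ⊓ A) ≤
      centralizer (((Q ⊓ centralizer (Q : Set G)) ⊔ (Q ⊓ A) : Subgroup G) : Set G) := by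
  rw [centralizer_sup']
  have h1 : Q ⊓ centralizer (Q : Set G) ≤ centralizer ((Q ⊓ centralizer (Q : Set G) : Subgroup G) : Set G) :=
    inf_le_right.trans (centralizer_le (by exact_mod_cast (inf_le_left : Q ⊓ centralizer (Q : Set G) ≤ Q)))
  have h2 : Q ⊓ centralizer (Q : Set G) ≤ centralizer ((Q ⊓ A : Subgroup G) : Set G) :=
    inf_le_right.trans (centralizer_le (by exact_mod_cast (inf_le_left : Q ⊓ A ≤ Q)))
  have h3 : Q ⊓ A ≤ centralizer ((Q ⊓ centralizer (Q : Set G) : Subgroup G) : Set G) :=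
    Subgroup.le_centralizer_iff.1 h2
  have h4 : Q ⊓ A ≤ centralizer ((Q ⊓ A : Subgroup G) : Set G) :=
    inf_le_right.trans (hA.trans (centralizer_le (by exact_mod_cast (inf_le_right : Q ⊓ A ≤ A))))
  exact sup_le (le_inf h1 h2) (le_inf h3 h4)

/-- The main computation for a centrally large `Q` and an abelian subgroup `A` of largest order. -/
theorem cl_maxAbelian [Finite G] {Q A : Subgroup G} (hQ : Cfsg.IsCentrallyLarge Q)
    (hA : A ∈ Cfsg.maxAbelianSubgroups G) :
    ((Q ⊔ A : Subgroup G) : Set G) = (Q : Set G) * (A : Set G) ∧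
    Cfsg.IsCentrallyLarge (Q ⊔ A) ∧
    centralizer ((Q ⊔ A : Subgroup G) : Set G) = (Q ⊓ centralizer (Q : Set G)) ⊓ A ∧
    (Q ⊓ centralizer (Q : Set G)) ⊔ (Q ⊓ A) ∈ Cfsg.maxAbelianSubgroups G ∧
    (((Q ⊓ centralizer (Q : Set G)) ⊔ (Q ⊓ A) : Subgroup G) : Set G) =
      ((Q ⊓ centralizer (Q : Set G) : Subgroup G) : Set G) * ((Q ⊓ A : Subgroup G) : Set G) := by
  obtain ⟨hAab, hAmax⟩ := hA
  have hAc : A ≤ centralizer (A : Set G) := le_centralizer_of_isMulCommutative hAab
  set Z := Q ⊓ centralizer (Q : Set G) with hZ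
  have hZeq : centralizer (Q : Set G) = Z := (inf_eq_right.2 (cl_centralizer_le hQ)).symm
  set As := Z ⊔ (Q ⊓ A) with hAs
  have hAsab : IsMulCommutative ↥As :=
    isMulCommutative_of_le_centralizer (center_sup_inf_le_centralizer Q A hAc)
  have h1 := card_mul_card_le Q A
  have h2 := card_mul_card_le Z (Q ⊓ A)
  have hZA : Z ⊓ (Q ⊓ A) = Z ⊓ A := by
    rw [← inf_assoc, inf_eq_left.2 (inf_le_left : Z ≤ Q)]
  rw [hZA] at h2
  have h3 : Nat.card As ≤ Nat.card A := hAmax As hAsab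
  have hle : Z ⊓ A ≤ centralizer ((Q ⊔ A : Subgroup G) : Set G) := by
    rw [centralizer_sup']
    exact inf_le_inf inf_le_right hAc
  have h4 : Nat.card ↥(Z ⊓ A) ≤ Nat.card (centralizer ((Q ⊔ A : Subgroup G) : Set G)) :=
    Subgroup.card_le_of_le hle
  have h5 : meas (Q ⊔ A) ≤ meas Q := by
    rw [cl_meas_eq hQ]; exact meas_le_maxCentralizerProduct _
  rw [meas_def, meas_def, hZeq] at h5
  -- abbreviations
  set q := Nat.card Q
  set z := Nat.card Z
  set a := Nat.card A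
  set i := Nat.card (Q ⊓ A : Subgroup G)
  set e := Nat.card (Z ⊓ A : Subgroup G)
  set t := Nat.card (Q ⊔ A : Subgroup G)
  set c := Nat.card (centralizer ((Q ⊔ A : Subgroup G) : Set G))
  set s := Nat.card As
  have hq : 0 < q := Nat.card_pos
  have hz : 0 < z := Nat.card_pos
  have ha : 0 < a := Nat.card_pos
  have hi : 0 < i := Nat.card_pos
  have he : 0 < e := Nat.card_pos
  have ht : 0 < t := Nat.card_pos
  have hc : 0 < c := Nat.card_pos
  have hs : 0 < s := Nat.card_pos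
  -- chain: q z i ≤ q s e ≤ q a e ≤ t i e ≤ t i c ≤ q z i
  have k1 : q * z * i ≤ q * (s * e) := by
    calc q * z * i = q * (z * i) := by ring
      _ ≤ q * (s * e) := Nat.mul_le_mul_left _ h2
  have k2 : q * (s * e) ≤ q * a * e := by
    calc q * (s * e) = q * e * s := by ring
      _ ≤ q * e * a := Nat.mul_le_mul_left _ h3
      _ = q * a * e := by ring
  have k3 : q * a * e ≤ t * i * e := Nat.mul_le_mul_right _ h1
  have k4 : t * i * e ≤ t * i * c := Nat.mul_le_mul_left _ h4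
  have k5 : t * i * c ≤ q * z * i := by
    calc t * i * c = t * c * i := by ring
      _ ≤ q * z * i := Nat.mul_le_mul_right _ h5
  have e1 : q * z * i = q * (s * e) := le_antisymm k1 (k2.trans (k3.trans (k4.trans k5)))
  have e2 : q * (s * e) = q * a * e := le_antisymm k2 (k3.trans (k4.trans (k5.trans k1)))
  have e3 : q * a * e = t * i * e := le_antisymm k3 (k4.trans (k5.trans (k1.trans k2)))
  have e4 : t * i * e = t * i * c := le_antisymm k4 (k5.trans (k1.trans (k2.trans k3)))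
  have e5 : t * i * c = q * z * i := le_antisymm k5 (k1.trans (k2.trans (k3.trans k4)))
  have f1 : z * i = s * e := Nat.eq_of_mul_eq_mul_left hq ((Nat.mul_assoc q z i).symm.trans e1)
  have f2 : s = a := by
    have : q * e * s = q * e * a := by
      calc q * e * s = q * (s * e) := by ring
        _ = q * a * e := e2
        _ = q * e * a := by ring
    exact Nat.eq_of_mul_eq_mul_left (Nat.mul_pos hq he) this
  have f3 : q * a = t * i := Nat.eq_of_mul_eq_mul_right he e3
  have f4 : e = c := Nat.eq_of_mul_eq_mul_left (Nat.mul_pos ht hi) e4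
  have f5 : t * c = q * z := by
    have : t * c * i = q * z * i := by
      calc t * c * i = t * i * c := by ring
        _ = q * z * i := e5
    exact Nat.eq_of_mul_eq_mul_right hi this
  have hcent : centralizer ((Q ⊔ A : Subgroup G) : Set G) = Z ⊓ A :=
    (Subgroup.eq_of_le_of_card_ge hle (le_of_eq f4.symm)).symm
  refine ⟨coe_sup_eq_mul_of_card_eq f3, ?_, hcent, ⟨hAsab, fun B hB => ?_⟩, ?_⟩
  · rw [isCentrallyLarge_iff']
    refine ⟨?_, ?_⟩
    · have : meas (Q ⊔ A) = meas Q := by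
        rw [meas_def, meas_def, hZeq]; exact f5
      exact this.trans (cl_meas_eq hQ)
    · rw [hcent]
      exact inf_le_left.trans (inf_le_left.trans le_sup_left)
  · have := hAmax B hB
    exact this.trans (le_of_eq f2.symm)
  · apply coe_sup_eq_mul_of_card_eq
    rw [hZA]
    exact f1

/-- For `Q` centrally large and `A` abelian of largest order: `C_Q(Q ∩ A) ≤ Z(Q) (Q ∩ A)`. -/
theorem cl_maxAbelian_centralizer_inf [Finite G] {Q A : Subgroup G} (hQ : Cfsg.IsCentrallyLarge Q)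
    (hA : A ∈ Cfsg.maxAbelianSubgroups G) :
    Q ⊓ centralizer ((Q ⊓ A : Subgroup G) : Set G) ≤ (Q ⊓ centralizer (Q : Set G)) ⊔ (Q ⊓ A) := by
  obtain ⟨-, -, -, hAs, -⟩ := cl_maxAbelian hQ hA
  obtain ⟨hAsab, hAsmax⟩ := hAs
  set As := (Q ⊓ centralizer (Q : Set G)) ⊔ (Q ⊓ A) with hAsdef
  have hAsc : As ≤ centralizer (As : Set G) := le_centralizer_of_isMulCommutative hAsab
  intro x hx
  rw [Subgroup.mem_inf] at hx
  -- B = As ⊔ ⟨x⟩ is abelian
  set B := As ⊔ Subgroup.zpowers x with hB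
  have hxc : Subgroup.zpowers x ≤ centralizer (As : Set G) := by
    rw [Subgroup.zpowers_le, hAsdef, centralizer_sup', Subgroup.mem_inf]
    refine ⟨?_, hx.2⟩
    have h1 : Q ⊓ centralizer (Q : Set G) ≤ centralizer (Q : Set G) := inf_le_right
    exact (Subgroup.le_centralizer_iff.1 h1) hx.1
  have hxx : Subgroup.zpowers x ≤ centralizer ((Subgroup.zpowers x : Subgroup G) : Set G) :=
    le_centralizer_of_isMulCommutative inferInstance
  have hBc : B ≤ centralizer (B : Set G) := by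
    rw [hB, centralizer_sup']
    exact sup_le (le_inf hAsc (Subgroup.le_centralizer_iff.1 hxc)) (le_inf hxc hxx)
  have hBab : IsMulCommutative ↥B := isMulCommutative_of_le_centralizer hBc
  have h1 : Nat.card B ≤ Nat.card As := hAsmax B hBab
  have h2 : As = B := Subgroup.eq_of_le_of_card_ge le_sup_left h1
  rw [h2]
  exact (le_sup_right : Subgroup.zpowers x ≤ B) (Subgroup.mem_zpowers x)

/-- `C_{QA}(Q ∩ A) = Z(Q) A` (as a subgroup and as a product set). -/
theorem cl_maxAbelian_centralizer [Finite G] {Q A : Subgroup G} (hQ : Cfsg.IsCentrallyLarge Q)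
    (hA : A ∈ Cfsg.maxAbelianSubgroups G) :
    (Q ⊔ A) ⊓ centralizer ((Q ⊓ A : Subgroup G) : Set G) = (Q ⊓ centralizer (Q : Set G)) ⊔ A ∧
    (((Q ⊓ centralizer (Q : Set G)) ⊔ A : Subgroup G) : Set G) =
      ((Q ⊓ centralizer (Q : Set G) : Subgroup G) : Set G) * (A : Set G) := by
  obtain ⟨hset, -, -, -, hset2⟩ := cl_maxAbelian hQ hA
  have hAc : A ≤ centralizer (A : Set G) := le_centralizer_of_isMulCommutative hA.1
  have hAc' : A ≤ centralizer ((Q ⊓ A : Subgroup G) : Set G) :=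
    hAc.trans (centralizer_le (by exact_mod_cast (inf_le_right : Q ⊓ A ≤ A)))
  have hge : (Q ⊓ centralizer (Q : Set G)) ⊔ A ≤ (Q ⊔ A) ⊓ centralizer ((Q ⊓ A : Subgroup G) : Set G) := by
    refine sup_le (le_inf (inf_le_left.trans le_sup_left) ?_) (le_inf le_sup_right hAc')
    exact inf_le_right.trans (centralizer_le (by exact_mod_cast (inf_le_left : Q ⊓ A ≤ Q)))
  -- every element of the left side is z * a
  have key : ∀ x ∈ (Q ⊔ A) ⊓ centralizer ((Q ⊓ A : Subgroup G) : Set G),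
      x ∈ ((Q ⊓ centralizer (Q : Set G) : Subgroup G) : Set G) * (A : Set G) := by
    intro x hx
    rw [Subgroup.mem_inf] at hx
    have hx1 : x ∈ ((Q ⊔ A : Subgroup G) : Set G) := hx.1
    rw [hset, Set.mem_mul] at hx1
    obtain ⟨q₀, hq₀, a₀, ha₀, rfl⟩ := hx1
    have hq₀c : q₀ ∈ centralizer ((Q ⊓ A : Subgroup G) : Set G) := by
      have : q₀ = (q₀ * a₀) * a₀⁻¹ := by group
      rw [this]
      exact mul_mem hx.2 (inv_mem (hAc' ha₀))
    have hq₀s := cl_maxAbelian_centralizer_inf hQ hA (Subgroup.mem_inf.2 ⟨hq₀, hq₀c⟩)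
    have hq₀s' : q₀ ∈ (((Q ⊓ centralizer (Q : Set G)) ⊔ (Q ⊓ A) : Subgroup G) : Set G) := hq₀s
    rw [hset2, Set.mem_mul] at hq₀s'
    obtain ⟨z₀, hz₀, b₀, hb₀, rfl⟩ := hq₀s'
    rw [Set.mem_mul]
    refine ⟨z₀, hz₀, b₀ * a₀, mul_mem (inf_le_right (a := Q) hb₀) ha₀, by group⟩
  have hsub : ((Q ⊓ centralizer (Q : Set G) : Subgroup G) : Set G) * (A : Set G) ⊆
      (((Q ⊓ centralizer (Q : Set G)) ⊔ A : Subgroup G) : Set G) := by
    rintro x hx
    rw [Set.mem_mul] at hx
    obtain ⟨z₀, hz₀, a₀, ha₀, rfl⟩ := hx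
    exact mul_mem ((le_sup_left : Q ⊓ centralizer (Q : Set G) ≤ _) hz₀)
      ((le_sup_right : A ≤ (Q ⊓ centralizer (Q : Set G)) ⊔ A) ha₀)
  have hle : (Q ⊔ A) ⊓ centralizer ((Q ⊓ A : Subgroup G) : Set G) ≤ (Q ⊓ centralizer (Q : Set G)) ⊔ A :=
    fun x hx => hsub (key x hx)
  refine ⟨le_antisymm hle hge, ?_⟩
  apply Set.Subset.antisymm
  · intro x hx
    exact key x (hge hx)
  · exact hsub

/-- If `Q` is centrally large then so is `Q ⊔ J(G)`. -/
theorem cl_sup_thompson [Finite G] {Q : Subgroup G} (hQ : Cfsg.IsCentrallyLarge Q) :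
    Cfsg.IsCentrallyLarge (Q ⊔ Cfsg.thompsonSubgroupA G) := by
  have : Nonempty {T : Subgroup G // Cfsg.IsCentrallyLarge T ∧ Q ≤ T ∧ T ≤ Q ⊔ Cfsg.thompsonSubgroupA G} :=
    ⟨⟨Q, hQ, le_rfl, le_sup_left⟩⟩
  obtain ⟨⟨T, hT, hQT, hTle⟩, hTmax⟩ := Finite.exists_max
    (fun T : {T : Subgroup G // Cfsg.IsCentrallyLarge T ∧ Q ≤ T ∧ T ≤ Q ⊔ Cfsg.thompsonSubgroupA G} =>
      Nat.card T.1)
  have h1 : Cfsg.thompsonSubgroupA G ≤ T := by
    apply sSup_le
    intro A hA
    obtain ⟨-, h2, -, -, -⟩ := cl_maxAbelian hT hA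
    have hAJ : A ≤ Cfsg.thompsonSubgroupA G := le_sSup hA
    have h3 : T ⊔ A ≤ Q ⊔ Cfsg.thompsonSubgroupA G := sup_le hTle (hAJ.trans le_sup_right)
    have h4 := hTmax ⟨T ⊔ A, h2, hQT.trans le_sup_left, h3⟩
    have h5 : T = T ⊔ A := Subgroup.eq_of_le_of_card_ge le_sup_left h4
    rw [h5]
    exact le_sup_right
  have h2 : T = Q ⊔ Cfsg.thompsonSubgroupA G := le_antisymm hTle (sup_le hQT h1)
  rw [← h2]
  exact hT

/-- `C(Z(J(G))) ≤ Q J(G)` for every centrally large `Q`. -/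
theorem centralizer_center_thompson_le [Finite G] {Q : Subgroup G} (hQ : Cfsg.IsCentrallyLarge Q) :
    centralizer ((Cfsg.thompsonSubgroupA G ⊓ centralizer (Cfsg.thompsonSubgroupA G : Set G) :
      Subgroup G) : Set G) ≤ Q ⊔ Cfsg.thompsonSubgroupA G := by
  set J := Cfsg.thompsonSubgroupA G with hJ
  set T := Q ⊔ J with hT
  have hTcl : Cfsg.IsCentrallyLarge T := cl_sup_thompson hQ
  obtain ⟨A, hA⟩ := exists_maxAbelian (G := G)
  have hAJ : A ≤ J := le_sSup hA
  have hAT : A ≤ T := hAJ.trans le_sup_right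
  obtain ⟨-, -, h3, -, -⟩ := cl_maxAbelian hTcl hA
  rw [sup_eq_left.2 hAT] at h3
  have h4 : centralizer (T : Set G) ≤ J := by
    rw [h3]; exact inf_le_right.trans hAJ
  have h5 : centralizer (T : Set G) ≤ centralizer (J : Set G) :=
    centralizer_le (by exact_mod_cast (le_sup_right : J ≤ T))
  have h6 : centralizer (T : Set G) ≤ J ⊓ centralizer (J : Set G) := le_inf h4 h5
  have hM := meas_le_maxCentralizerProduct (G := G)
  obtain ⟨-, h7⟩ := cd_centralizer hM (cl_meas_eq hTcl)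
  calc centralizer ((J ⊓ centralizer (J : Set G) : Subgroup G) : Set G)
      ≤ centralizer ((centralizer (T : Set G) : Subgroup G) : Set G) :=
        centralizer_le (by exact_mod_cast h6)
    _ = T := h7

theorem thompson_le_centrallyLargeJoin [Finite G] :
    Cfsg.thompsonSubgroupA G ≤ Cfsg.centrallyLargeJoin G := by
  have h1 := cl_sup_thompson (isCentrallyLarge_centrallyLargeJoin (G := G))
  exact le_sup_right.trans (le_centrallyLargeJoin h1)

end Cfsg.Agent.H56
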