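import Mathlib
import Cfsg.Prelude.Def_BaumannBlocks
import Cfsg.Agent.H56.CD
import Cfsg.Agent.H56.CDP
import Cfsg.Agent.H56.CL
import Cfsg.Agent.H56.CL2

/-!
# Minimal centrally large subgroups (helper56)
-/

set_option autoImplicit false

namespace Cfsg.Agent.H56

open Subgroup
open scoped Pointwise commutatorElement

variable {G : Type*} [Group G]

theorem commutatorElement_mul_left_of_commute {a z y : G} (h : z * y = y * z) :
    ⁅a * z, y⁆ = ⁅a, y⁆ := by
  rw [commutatorElement_def, commutatorElement_def]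
  have : a * z * y * (a * z)⁻¹ * y⁻¹ = a * (z * y) * z⁻¹ * a⁻¹ * y⁻¹ := by group
  rw [this, h]; group

theorem commutatorElement_mul_right_of_commute {a b z : G} (h : z * a = a * z) :
    ⁅a, b * z⁆ = ⁅a, b⁆ := by
  rw [commutatorElement_def, commutatorElement_def]
  have : a * (b * z) * a⁻¹ * (b * z)⁻¹ = a * b * (z * a⁻¹) * z⁻¹ * b⁻¹ := by group
  have h2 : z * a⁻¹ = a⁻¹ * z := by
    have : a⁻¹ * (z * a) * a⁻¹ = a⁻¹ * (a * z) * a⁻¹ := by rw [h]
    calc z * a⁻¹ = a⁻¹ * (a * z) * a⁻¹ := by group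
      _ = a⁻¹ * (z * a) * a⁻¹ := by rw [h]
      _ = a⁻¹ * z := by group
  rw [this, h2]; group

/-- If `Q` is minimal centrally large and `R` is centrally large then `Q = (Q ∩ R) C(Q)`, with
the order formula and the set version. -/
theorem mcl_eq_inf_sup [Finite G] {Q R : Subgroup G} (hQ : Cfsg.IsMinimalCentrallyLarge Q)
    (hR : Cfsg.IsCentrallyLarge R) :
    (Q ⊓ R) ⊔ centralizer (Q : Set G) = Q ∧
    Nat.card ↥(Q ⊓ R) * Nat.card (centralizer (Q : Set G)) =
      Nat.card Q * Nat.card ↥((Q ⊓ R) ⊓ centralizer (Q : Set G)) ∧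
    (Q : Set G) = ((Q ⊓ R : Subgroup G) : Set G) * (centralizer (Q : Set G) : Set G) := by
  have hM := meas_le_maxCentralizerProduct (G := G)
  have hQm := cl_meas_eq hQ.1
  have hRm := cl_meas_eq hR
  have hQc := cl_centralizer_le hQ.1
  have hRc := cl_centralizer_le hR
  obtain ⟨-, hD, -, hCC, hCD⟩ := cd_core hM hQm hRm
  obtain ⟨hCQ, hCCQ⟩ := cd_centralizer hM hQm
  obtain ⟨hQ1, -, hcard, -, -⟩ := cd_core hM hD hCQ
  have hle : (Q ⊓ R) ⊔ centralizer (Q : Set G) ≤ Q := sup_le inf_le_left hQc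
  have hcl : Cfsg.IsCentrallyLarge ((Q ⊓ R) ⊔ centralizer (Q : Set G)) := by
    rw [isCentrallyLarge_iff']
    refine ⟨hQ1, ?_⟩
    rw [centralizer_sup', hCCQ, hCD]
    intro x hx
    rw [Subgroup.mem_inf] at hx
    have hx1 : x ∈ ((centralizer (Q : Set G) ⊔ centralizer (R : Set G) : Subgroup G) : Set G) := hx.1
    rw [coe_sup_eq_mul_of_card_eq hCC, Set.mem_mul] at hx1
    obtain ⟨z, hz, r, hr, rfl⟩ := hx1
    have hrQ : r ∈ Q := by
      have : r = z⁻¹ * (z * r) := by group
      rw [this]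
      exact mul_mem (inv_mem (hQc hz)) hx.2
    have hrD : r ∈ Q ⊓ R := Subgroup.mem_inf.2 ⟨hrQ, hRc hr⟩
    exact mul_mem ((le_sup_right : centralizer (Q : Set G) ≤ (Q ⊓ R) ⊔ centralizer (Q : Set G)) hz)
      ((le_sup_left : Q ⊓ R ≤ (Q ⊓ R) ⊔ centralizer (Q : Set G)) hrD)
  have heq : (Q ⊓ R) ⊔ centralizer (Q : Set G) = Q := hQ.2 _ hle hcl
  refine ⟨heq, ?_, ?_⟩
  · rw [hcard, heq]
  · have := coe_sup_eq_mul_of_card_eq hcard
    rw [heq] at this
    exact this

/-- For minimal centrally large `Q`, `R`: `Q ∩ R ∩ C(Q) ≤ C(R)`. -/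
theorem mcl_inf_centralizer_le [Finite G] {Q R : Subgroup G} (hQ : Cfsg.IsMinimalCentrallyLarge Q)
    (hR : Cfsg.IsMinimalCentrallyLarge R) :
    (Q ⊓ R) ⊓ centralizer (Q : Set G) ≤ (R ⊓ Q) ⊓ centralizer (R : Set G) := by
  obtain ⟨h1, -, -⟩ := mcl_eq_inf_sup hR hQ.1
  intro x hx
  rw [Subgroup.mem_inf, Subgroup.mem_inf] at hx
  refine Subgroup.mem_inf.2 ⟨Subgroup.mem_inf.2 ⟨hx.1.2, hx.1.1⟩, ?_⟩
  have h2 : x ∈ centralizer (((R ⊓ Q) ⊔ centralizer (R : Set G) : Subgroup G) : Set G) := by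
    rw [centralizer_sup', Subgroup.mem_inf]
    refine ⟨?_, ?_⟩
    · exact (centralizer_le (by exact_mod_cast (inf_le_right : R ⊓ Q ≤ Q))) hx.2
    · exact (le_centralizer_centralizer' R) hx.1.2
  rw [h1] at h2
  exact h2

theorem mcl_inf_centralizer_eq [Finite G] {Q R : Subgroup G} (hQ : Cfsg.IsMinimalCentrallyLarge Q)
    (hR : Cfsg.IsMinimalCentrallyLarge R) :
    (Q ⊓ R) ⊓ centralizer (Q : Set G) = (R ⊓ Q) ⊓ centralizer (R : Set G) :=
  le_antisymm (mcl_inf_centralizer_le hQ hR) (mcl_inf_centralizer_le hR hQ)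

/-- Two minimal centrally large subgroups have the same order and centralizers of the same order. -/
theorem mcl_card_eq [Finite G] {Q R : Subgroup G} (hQ : Cfsg.IsMinimalCentrallyLarge Q)
    (hR : Cfsg.IsMinimalCentrallyLarge R) :
    Nat.card Q = Nat.card R ∧
      Nat.card (centralizer (Q : Set G)) = Nat.card (centralizer (R : Set G)) := by
  obtain ⟨-, h1, -⟩ := mcl_eq_inf_sup hQ hR.1
  obtain ⟨-, h2, -⟩ := mcl_eq_inf_sup hR hQ.1
  rw [← mcl_inf_centralizer_eq hQ hR, inf_comm R Q] at h2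
  have h3 : meas Q = meas R := (cl_meas_eq hQ.1).trans (cl_meas_eq hR.1).symm
  rw [meas_def, meas_def] at h3
  set q := Nat.card Q
  set r := Nat.card R
  set zq := Nat.card (centralizer (Q : Set G))
  set zr := Nat.card (centralizer (R : Set G))
  set i := Nat.card ↥(Q ⊓ R)
  set d := Nat.card ↥((Q ⊓ R) ⊓ centralizer (Q : Set G))
  have hq : 0 < q := Nat.card_pos
  have hr : 0 < r := Nat.card_pos
  have hzq : 0 < zq := Nat.card_pos
  have hzr : 0 < zr := Nat.card_pos
  have hd : 0 < d := Nat.card_pos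
  -- q * zr = r * zq
  have h4 : q * zr = r * zq := by
    have : d * (q * zr) = d * (r * zq) := by
      calc d * (q * zr) = (q * d) * zr := by ring
        _ = (i * zq) * zr := by rw [h1]
        _ = (i * zr) * zq := by ring
        _ = (r * d) * zq := by rw [h2]
        _ = d * (r * zq) := by ring
    exact Nat.eq_of_mul_eq_mul_left hd this
  have h5 : q * q = r * r := by
    have : (zq * zr) * (q * q) = (zq * zr) * (r * r) := by
      calc (zq * zr) * (q * q) = (q * zq) * (q * zr) := by ring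
        _ = (r * zr) * (r * zq) := by rw [h3, h4]
        _ = (zq * zr) * (r * r) := by ring
    exact Nat.eq_of_mul_eq_mul_left (Nat.mul_pos hzq hzr) this
  have h6 : q = r := Nat.mul_self_inj.1 h5
  refine ⟨h6, ?_⟩
  rw [h6] at h3
  exact Nat.eq_of_mul_eq_mul_left hr h3

/-- Two minimal centrally large subgroups have the same derived subgroup. -/
theorem mcl_commutator_le [Finite G] {Q R : Subgroup G} (hQ : Cfsg.IsMinimalCentrallyLarge Q)
    (hR : Cfsg.IsCentrallyLarge R) : ⁅Q, Q⁆ ≤ ⁅R, R⁆ := by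
  obtain ⟨-, -, hset⟩ := mcl_eq_inf_sup hQ hR
  have key : ∀ x ∈ Q, ∃ d ∈ Q ⊓ R, ∃ z ∈ centralizer (Q : Set G), x = d * z := by
    intro x hx
    have hx' : x ∈ (Q : Set G) := hx
    rw [hset, Set.mem_mul] at hx'
    obtain ⟨d, hd, z, hz, rfl⟩ := hx'
    exact ⟨d, hd, z, hz, rfl⟩
  rw [Subgroup.commutator_le]
  intro x hx y hy
  obtain ⟨d, hd, z, hz, rfl⟩ := key x hx
  obtain ⟨d', hd', z', hz', rfl⟩ := key y hy
  have hd1 : d ∈ Q := (Subgroup.mem_inf.1 hd).1
  have h1 : z * (d' * z') = (d' * z') * z := ((Subgroup.mem_centralizer_iff.1 hz) _ hy).symm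
  have h2 : z' * d = d * z' := ((Subgroup.mem_centralizer_iff.1 hz') _ hd1).symm
  rw [commutatorElement_mul_left_of_commute h1, commutatorElement_mul_right_of_commute h2]
  exact Subgroup.commutator_mem_commutator (Subgroup.mem_inf.1 hd).2 (Subgroup.mem_inf.1 hd').2

/-- If some minimal centrally large subgroup is abelian then the minimal centrally large
subgroups are exactly the abelian subgroups of largest order. -/
theorem mcl_iff_maxAbelian [Finite G] {Q : Subgroup G} (hQ : Cfsg.IsMinimalCentrallyLarge Q)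
    (hQab : IsMulCommutative ↥Q) (X : Subgroup G) :
    Cfsg.IsMinimalCentrallyLarge X ↔ X ∈ Cfsg.maxAbelianSubgroups G := by
  have hQc := cl_centralizer_le hQ.1
  have hQc' : Q ≤ centralizer (Q : Set G) := le_centralizer_of_isMulCommutative hQab
  have hCQ : centralizer (Q : Set G) = Q := le_antisymm hQc hQc'
  have hf : Cfsg.maxCentralizerProduct G = Nat.card Q * Nat.card Q := by
    rw [← cl_meas_eq hQ.1, meas_def, hCQ]
  -- every abelian subgroup has order ≤ |Q|
  have hmax : ∀ B : Subgroup G, IsMulCommutative ↥B → Nat.card B ≤ Nat.card Q := by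
    intro B hB
    have hBc : B ≤ centralizer (B : Set G) := le_centralizer_of_isMulCommutative hB
    have h1 : Nat.card B * Nat.card B ≤ Nat.card Q * Nat.card Q := by
      rw [← hf]
      refine le_trans ?_ (meas_le_maxCentralizerProduct B)
      rw [meas_def]
      exact Nat.mul_le_mul_left _ (Subgroup.card_le_of_le hBc)
    exact Nat.mul_self_le_mul_self_iff.1 h1
  constructor
  · intro hX
    obtain ⟨h1, h2⟩ := mcl_card_eq hX hQ
    rw [hCQ] at h2
    have hXc := cl_centralizer_le hX.1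
    have h3 : centralizer (X : Set G) = X :=
      Subgroup.eq_of_le_of_card_ge hXc (by rw [h2, h1])
    refine ⟨isMulCommutative_of_le_centralizer (le_of_eq h3.symm), fun B hB => ?_⟩
    rw [h1]
    exact hmax B hB
  · rintro ⟨hXab, hXmax⟩
    have hXc : X ≤ centralizer (X : Set G) := le_centralizer_of_isMulCommutative hXab
    have h1 : Nat.card X = Nat.card Q := le_antisymm (hmax X hXab) (hXmax Q hQab)
    have h2 : meas X = Cfsg.maxCentralizerProduct G := by
      apply le_antisymm (meas_le_maxCentralizerProduct X)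
      rw [hf, meas_def, ← h1]
      exact Nat.mul_le_mul_left _ (Subgroup.card_le_of_le hXc)
    have h3 : Nat.card (centralizer (X : Set G)) = Nat.card X := by
      have : Nat.card X * Nat.card (centralizer (X : Set G)) = Nat.card X * Nat.card X := by
        rw [← meas_def, h2, hf, h1]
      exact Nat.eq_of_mul_eq_mul_left Nat.card_pos this
    have h4 : X = centralizer (X : Set G) := Subgroup.eq_of_le_of_card_ge hXc (le_of_eq h3)
    have hXcl : Cfsg.IsCentrallyLarge X := by
      rw [isCentrallyLarge_iff']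
      exact ⟨h2, le_of_eq h4.symm⟩
    refine ⟨hXcl, fun X' hX'le hX' => ?_⟩
    have hX'c := cl_centralizer_le hX'
    have hX'c' : X' ≤ centralizer (X' : Set G) :=
      hX'le.trans (hXc.trans (centralizer_le (by exact_mod_cast hX'le)))
    have h5 : centralizer (X' : Set G) = X' := le_antisymm hX'c hX'c'
    have h6 : Nat.card X' * Nat.card X' = Nat.card X * Nat.card X := by
      have := cl_meas_eq hX'
      rw [meas_def, h5, hf, ← h1] at this
      exact this
    have h7 : Nat.card X' = Nat.card X := Nat.mul_self_inj.1 h6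
    exact Subgroup.eq_of_le_of_card_ge hX'le (le_of_eq h7.symm)

end Cfsg.Agent.H56
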