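import Mathlib
import Cfsg.Prelude.Def_LieTypeChar

/-!
# S4625 team project: tools and the statements of the pieces

`SqComm X`: every Sylow 2-subgroup `P` of `X` has `x ^ 2 ∈ P'` for all `x ∈ P` (`P / P'` is
elementary abelian).  Each piece says that the model group of one Lie family in characteristic 2
is `SqComm`.

The tool: `GoodSyl X` — there is a 2-subgroup `U` of odd index with `u ^ 2 ∈ U'` for all `u ∈ U`;
it follows from `goodSyl_of_gen` (`U` is generated by elements `t ∈ U` with `t ^ 2 ∈ ⁅U, U⁆`,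
for instance by involutions), passes to images under surjective homomorphisms (`GoodSyl.map`,
`GoodSyl.quotient`), and gives `SqComm` for finite groups (`GoodSyl.sqComm`).
-/

set_option autoImplicit false

namespace Cfsg.Agent.H56.Sq

open Cfsg

/-- `y ^ 2 ∈ Y'` for all `y`. -/
def SqT (Y : Type*) [Group Y] : Prop := ∀ y : Y, y ^ 2 ∈ commutator Y

/-- Every Sylow 2-subgroup `P` has `x ^ 2 ∈ P'` for all `x ∈ P`. -/
def SqComm (X : Type*) [Group X] : Prop :=
  ∀ P : Sylow 2 X, ∀ x : (P : Subgroup X), x ^ 2 ∈ commutator (P : Subgroup X)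

/-- There is a 2-subgroup `U` of odd index with `u ^ 2 ∈ U'` for all `u ∈ U`. -/
def GoodSyl (X : Type*) [Group X] : Prop :=
  ∃ U : Subgroup X, IsPGroup 2 U ∧ ¬ 2 ∣ U.index ∧ SqT U

/-- A group generated by elements whose squares lie in the derived subgroup. -/
theorem sqT_of_closure {Y : Type*} [Group Y] (S : Set Y) (hS : Subgroup.closure S = ⊤)
    (hsq : ∀ s ∈ S, s ^ 2 ∈ commutator Y) : SqT Y := by
  intro y
  have hle : Subgroup.closure S ≤
      (MonoidHom.ker (powMonoidHom 2 : Abelianization Y →* Abelianization Y)).comap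
        Abelianization.of := by
    rw [Subgroup.closure_le]
    intro s hs
    have h1 : Abelianization.of (s ^ 2) = 1 := by
      have := hsq s hs
      rwa [← Abelianization.ker_of, MonoidHom.mem_ker] at this
    simp only [SetLike.mem_coe, Subgroup.mem_comap, MonoidHom.mem_ker, powMonoidHom_apply]
    rw [← map_pow]
    exact h1
  have hy : y ∈ Subgroup.closure S := by rw [hS]; exact Subgroup.mem_top y
  have h2 := hle hy
  simp only [Subgroup.mem_comap, MonoidHom.mem_ker, powMonoidHom_apply] at h2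
  rw [← Abelianization.ker_of, MonoidHom.mem_ker, map_pow]
  exact h2

/-- `SqT` passes to images under surjective homomorphisms. -/
theorem SqT.of_surjective {Y Z : Type*} [Group Y] [Group Z] (f : Y →* Z)
    (hf : Function.Surjective f) (h : SqT Y) : SqT Z := by
  intro z
  obtain ⟨y, rfl⟩ := hf z
  have h1 : f (y ^ 2) ∈ (commutator Y).map f := Subgroup.mem_map_of_mem f (h y)
  rw [commutator_def, Subgroup.map_commutator] at h1
  rw [commutator_def, ← map_pow]
  exact Subgroup.commutator_mono le_top le_top h1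

/-- `SqT` is invariant under isomorphism. -/
theorem SqT.of_equiv {Y Z : Type*} [Group Y] [Group Z] (e : Y ≃* Z) (h : SqT Z) : SqT Y :=
  h.of_surjective e.symm.toMonoidHom e.symm.surjective

/-- The generation criterion inside an ambient group: `U` is generated by elements `t ∈ U`
with `t ^ 2 ∈ ⁅U, U⁆`. -/
theorem sqT_of_gen {X : Type*} [Group X] (U : Subgroup X)
    (hgen : U ≤ Subgroup.closure {t : X | t ∈ U ∧ t ^ 2 ∈ ⁅U, U⁆}) : SqT U := by
  have hcomm : (commutator U).map U.subtype = ⁅U, U⁆ := by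
    rw [commutator_def, Subgroup.map_commutator, ← MonoidHom.range_eq_map, Subgroup.range_subtype]
  apply sqT_of_closure {s : U | (s : X) ^ 2 ∈ ⁅U, U⁆}
  · rw [eq_top_iff]
    intro u _
    have hu : (u : X) ∈ Subgroup.closure {t : X | t ∈ U ∧ t ^ 2 ∈ ⁅U, U⁆} := hgen u.2
    have key : ∀ x ∈ Subgroup.closure {t : X | t ∈ U ∧ t ^ 2 ∈ ⁅U, U⁆}, ∀ hx : x ∈ U,
        (⟨x, hx⟩ : U) ∈ Subgroup.closure {s : U | (s : X) ^ 2 ∈ ⁅U, U⁆} := by
      intro x hx
      induction hx using Subgroup.closure_induction with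
      | mem x hx =>
        intro hxU
        exact Subgroup.subset_closure hx.2
      | one =>
        intro _
        exact Subgroup.one_mem _
      | mul x y hx hy ihx ihy =>
        intro hxy
        have hxU : x ∈ U := (Subgroup.closure_le U).2 (fun t ht => ht.1) hx
        have hyU : y ∈ U := (Subgroup.closure_le U).2 (fun t ht => ht.1) hy
        exact Subgroup.mul_mem _ (ihx hxU) (ihy hyU)
      | inv x hx ihx =>
        intro hxi
        have hxU : x ∈ U := (Subgroup.closure_le U).2 (fun t ht => ht.1) hx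
        exact Subgroup.inv_mem _ (ihx hxU)
    exact key u hu u.2
  · intro s hs
    have hs' : (s : X) ^ 2 ∈ (commutator U).map U.subtype := by
      rw [hcomm]; exact hs
    obtain ⟨c, hc, hcs⟩ := hs'
    have : c = s ^ 2 := by
      apply Subtype.ext
      rw [Subgroup.coe_pow]
      exact hcs
    rw [← this]
    exact hc

/-- The generation criterion for `GoodSyl`. -/
theorem goodSyl_of_gen {X : Type*} [Group X] (U : Subgroup X) (hU : IsPGroup 2 U)
    (hidx : ¬ 2 ∣ U.index)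
    (hgen : U ≤ Subgroup.closure {t : X | t ∈ U ∧ t ^ 2 ∈ ⁅U, U⁆}) : GoodSyl X :=
  ⟨U, hU, hidx, sqT_of_gen U hgen⟩

/-- `GoodSyl` passes to images under surjective homomorphisms. -/
theorem GoodSyl.map {X Y : Type*} [Group X] [Group Y] (f : X →* Y)
    (hf : Function.Surjective f) (h : GoodSyl X) : GoodSyl Y := by
  obtain ⟨U, hU, hidx, hsq⟩ := h
  refine ⟨U.map f, hU.map f, fun h2 => hidx (dvd_trans h2 (Subgroup.index_map_dvd U hf)), ?_⟩
  exact hsq.of_surjective (f.subgroupMap U) (f.subgroupMap_surjective U)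

/-- `GoodSyl` passes to quotients. -/
theorem GoodSyl.quotient {X : Type*} [Group X] (N : Subgroup X) [N.Normal] (h : GoodSyl X) :
    GoodSyl (X ⧸ N) :=
  h.map (QuotientGroup.mk' N) (QuotientGroup.mk'_surjective N)

/-- `GoodSyl` is invariant under isomorphism. -/
theorem GoodSyl.of_equiv {X Y : Type*} [Group X] [Group Y] (e : X ≃* Y) (h : GoodSyl Y) :
    GoodSyl X :=
  h.map e.symm.toMonoidHom e.symm.surjective

/-- `GoodSyl` gives `SqComm` in a finite group. -/
theorem GoodSyl.sqComm {X : Type*} [Group X] [Finite X] (h : GoodSyl X) : SqComm X := by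
  obtain ⟨U, hU, hidx, hsq⟩ := h
  have : Fact (Nat.Prime 2) := ⟨Nat.prime_two⟩
  intro P
  obtain ⟨g, hg⟩ := MulAction.exists_smul_eq X (hU.toSylow hidx) P
  have e : ↥(((hU.toSylow hidx : Sylow 2 X)) : Subgroup X) ≃* ↥(P : Subgroup X) := by
    rw [← hg]
    exact Sylow.equivSMul (hU.toSylow hidx) g
  exact SqT.of_equiv e.symm hsq

/-- Conversely, in a finite group `SqComm` gives `GoodSyl`. -/
theorem goodSyl_of_sqComm {X : Type*} [Group X] [Finite X] (h : SqComm X) : GoodSyl X := by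
  have : Fact (Nat.Prime 2) := ⟨Nat.prime_two⟩
  obtain ⟨P⟩ : Nonempty (Sylow 2 X) := inferInstance
  exact ⟨P, P.isPGroup', P.not_dvd_index, h P⟩

/-- Special case of `goodSyl_of_gen`: `U` is generated by involutions. -/
theorem goodSyl_of_invol {X : Type*} [Group X] (U : Subgroup X) (hU : IsPGroup 2 U)
    (hidx : ¬ 2 ∣ U.index) (hgen : U ≤ Subgroup.closure {t : X | t ∈ U ∧ t ^ 2 = 1}) :
    GoodSyl X := by
  refine goodSyl_of_gen U hU hidx (hgen.trans (Subgroup.closure_mono ?_))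
  rintro t ⟨htU, ht⟩
  exact ⟨htU, by rw [ht]; exact Subgroup.one_mem _⟩

/-- Factorization form of the generation hypothesis: every element of `U` is a product of a list
of elements `t ∈ U` with `t ^ 2 ∈ ⁅U, U⁆`. -/
theorem le_closure_of_factor {X : Type*} [Group X] (U : Subgroup X)
    (hfac : ∀ u ∈ U, ∃ l : List X, (∀ t ∈ l, t ∈ U ∧ t ^ 2 ∈ ⁅U, U⁆) ∧ l.prod = u) :
    U ≤ Subgroup.closure {t : X | t ∈ U ∧ t ^ 2 ∈ ⁅U, U⁆} := by
  intro u hu
  obtain ⟨l, hl, rfl⟩ := hfac u hu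
  exact Subgroup.list_prod_mem _ (fun t ht => Subgroup.subset_closure (hl t ht))

/-! ## The statements of the pieces (characteristic 2 throughout) -/

/-- PSL_n(F). -/
def PSLStmt : Prop :=
  ∀ (F : Type) [Field F] [Fintype F] [CharP F 2] (n : ℕ), 2 ≤ n → (n = 2 → 4 ≤ Fintype.card F) →
    IsSimpleGroup (Matrix.ProjectiveSpecialLinearGroup (Fin n) F) →
    GoodSyl (Matrix.ProjectiveSpecialLinearGroup (Fin n) F)

/-- PSp_{2m}(F). -/
def PSpStmt : Prop :=
  ∀ (F : Type) [Field F] [Fintype F] [CharP F 2] (m : ℕ), 2 ≤ m → (m = 2 → 3 ≤ Fintype.card F) →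
    IsSimpleGroup (PSp m F) → GoodSyl (PSp m F)

/-- PSU_n(q). -/
def PSUStmt : Prop :=
  ∀ (F : Type) [Field F] [Fintype F] [CharP F 2] (n q : ℕ), Fintype.card F = q ^ 2 → 3 ≤ n →
    ¬ (n = 3 ∧ q = 2) → IsSimpleGroup (PSU n F q) → GoodSyl (PSU n F q)

/-- PΩ⁺_{2m}(F). -/
def PPlusStmt : Prop :=
  ∀ (F : Type) [Field F] [Fintype F] [CharP F 2] (m : ℕ), 4 ≤ m →
    IsSimpleGroup (POmega F (quadFormPlus m F)) → GoodSyl (POmega F (quadFormPlus m F))

/-- PΩ⁻_{2m}(F). -/
def PMinusStmt : Prop :=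
  ∀ (F : Type) [Field F] [Fintype F] [CharP F 2] (m : ℕ) (a b : F), 4 ≤ m →
    (∀ z₁ z₂ : F, z₁ ^ 2 + a * z₁ * z₂ + b * z₂ ^ 2 = 0 → z₁ = 0 ∧ z₂ = 0) →
    IsSimpleGroup (POmega F (quadFormMinus (m - 1) F a b)) →
    GoodSyl (POmega F (quadFormMinus (m - 1) F a b))

/-- G₂(F). -/
def G2Stmt : Prop :=
  ∀ (F : Type) [Field F] [Fintype F] [CharP F 2], 3 ≤ Fintype.card F →
    IsSimpleGroup (Lie.chevG2.group F) → GoodSyl (Lie.chevG2.group F)

/-- F₄(F). -/
def F4Stmt : Prop :=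
  ∀ (F : Type) [Field F] [Fintype F] [CharP F 2],
    IsSimpleGroup (Lie.chevF4.group F) → GoodSyl (Lie.chevF4.group F)

/-- E₆(F). -/
def E6Stmt : Prop :=
  ∀ (F : Type) [Field F] [Fintype F] [CharP F 2],
    IsSimpleGroup (Lie.chevE6.group F) → GoodSyl (Lie.chevE6.group F)

/-- E₇(F). -/
def E7Stmt : Prop :=
  ∀ (F : Type) [Field F] [Fintype F] [CharP F 2],
    IsSimpleGroup (Lie.chevE7.group F) → GoodSyl (Lie.chevE7.group F)

/-- E₈(F). -/
def E8Stmt : Prop :=
  ∀ (F : Type) [Field F] [Fintype F] [CharP F 2],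
    IsSimpleGroup (Lie.chevE8.group F) → GoodSyl (Lie.chevE8.group F)

/-- ²E₆(q). -/
def TwE6Stmt : Prop :=
  ∀ (K : Type) [Field K] [Fintype K] [CharP K 2] (q : ℕ), IsPrimePow q →
    Fintype.card K = q ^ 2 → IsSimpleGroup (Lie.twistedE6 K q) → GoodSyl (Lie.twistedE6 K q)

/-- ³D₄(q). -/
def TwD4Stmt : Prop :=
  ∀ (K : Type) [Field K] [Fintype K] [CharP K 2] (q : ℕ), IsPrimePow q →
    Fintype.card K = q ^ 3 → IsSimpleGroup (Lie.twistedD4 K q) → GoodSyl (Lie.twistedD4 K q)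

/-- Sz(q), q = 2^(2m+1) ≥ 8. -/
def SzStmt : Prop :=
  ∀ (F : Type) [Field F] [Fintype F] (m : ℕ), 1 ≤ m → Fintype.card F = 2 ^ (2 * m + 1) →
    GoodSyl (Lie.Sz F (2 ^ (m + 1)))

/-- ²F₄(q), q = 2^(2m+1) ≥ 8. -/
def TwF4Stmt : Prop :=
  ∀ (K : Type) [Field K] [Fintype K] (m : ℕ), 1 ≤ m → Fintype.card K = 2 ^ (2 * m + 1) →
    GoodSyl (Lie.twistedF4 K (2 ^ m))

end Cfsg.Agent.H56.Sq
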