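import Cfsg.Agent.H2.CensusStmts

set_option autoImplicit false

open Cfsg Cfsg.Agent.H2.Census

universe u

namespace Cfsg.Agent.H56.Census

open Subgroup

/-- The order of a Sylow `p`-subgroup when `|G| = p ^ k * m` with `p ∤ m`. -/
theorem sylow_card_pk {G : Type*} [Group G] [Finite G] (p k m : ℕ) [Fact p.Prime]
    (hG : Nat.card G = p ^ k * m) (hm : ¬ p ∣ m) (P : Sylow p G) :
    Nat.card (P : Subgroup G) = p ^ k := by
  have hp := (Fact.out : p.Prime)
  have hm0 : m ≠ 0 := by rintro rfl; exact hm (dvd_zero p)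
  rw [P.card_eq_multiplicity, hG, Nat.factorization_mul (pow_ne_zero k hp.ne_zero) hm0,
    hp.factorization_pow, Finsupp.add_apply, Finsupp.single_eq_same,
    Nat.factorization_eq_zero_of_not_dvd hm, add_zero]

/-- A subgroup of order `25` lies in every normal subgroup of index `2`. -/
theorem le_of_index_two_of_card {H : Type*} [Group H] [Finite H] (K : Subgroup H)
    (hK : K.index = 2) (Q : Subgroup H) (hQ : Nat.card Q = 25) : Q ≤ K := by
  intro x hx
  have h2 : x ^ 2 ∈ K := Subgroup.sq_mem_of_index_two hK x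
  have h25 : x ^ 25 = 1 := by
    have h := Subgroup.orderOf_dvd_natCard Q hx
    rw [hQ] at h
    exact orderOf_dvd_iff_pow_eq_one.1 h
  have h26 : x ^ 26 = x := by rw [pow_succ, h25, one_mul]
  have e : x = (x ^ 2) ^ 13 := by rw [← pow_mul]; exact h26.symm
  rw [e]
  exact K.pow_mem h2 13

/-- A group of order `2 * m`, `m` odd, has a normal subgroup of order `m`. -/
theorem exists_normal_of_card_two_mul_odd {H : Type*} [Group H] [Finite H] (m : ℕ)
    (hm : ¬ 2 ∣ m) (hH : Nat.card H = 2 * m) :
    ∃ K : Subgroup H, K.Normal ∧ Nat.card K = m ∧ K.index = 2 := by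
  obtain ⟨T⟩ : Nonempty (Sylow 2 H) := inferInstance
  have hT2 : Nat.card (T : Subgroup H) = 2 := by
    have h := sylow_card_pk 2 1 m (by rw [pow_one]; exact hH) hm T
    rwa [pow_one] at h
  have hTc : normalizer ((T : Subgroup H) : Set H) ≤ centralizer ((T : Subgroup H) : Set H) := by
    intro g hg
    rw [mem_centralizer_iff]
    intro t ht
    -- `g * t * g⁻¹ ∈ T`, and `T = {1, t}` when `t ≠ 1`
    by_cases ht1 : t = 1
    · rw [ht1, one_mul, mul_one]
    · have hgt : g * t * g⁻¹ ∈ (T : Subgroup H) := (mem_normalizer_iff.1 hg t).1 ht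
      have hgt1 : g * t * g⁻¹ ≠ 1 := by
        intro h
        apply ht1
        have e : t = g⁻¹ * (g * t * g⁻¹) * g := by group
        rw [e, h]; group
      obtain ⟨y, -, hy⟩ := (Nat.card_eq_two_iff' (1 : (T : Subgroup H))).1 hT2
      have h1 : (⟨t, ht⟩ : (T : Subgroup H)) = y :=
        hy _ (fun h => ht1 (congrArg Subtype.val h))
      have h2 : (⟨g * t * g⁻¹, hgt⟩ : (T : Subgroup H)) = y :=
        hy _ (fun h => hgt1 (congrArg Subtype.val h))
      have h : g * t * g⁻¹ = t := congrArg Subtype.val (h2.trans h1.symm)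
      calc t * g = (g * t * g⁻¹) * g := by rw [h]
        _ = g * t := by group
  have hcompl := MonoidHom.ker_transferSylow_isComplement' T hTc
  have hmul := hcompl.card_mul_card
  rw [hT2, hH] at hmul
  refine ⟨(MonoidHom.transferSylow T hTc).ker, (MonoidHom.transferSylow T hTc).normal_ker,
    by omega, ?_⟩
  have hidx := Subgroup.card_mul_index (MonoidHom.transferSylow T hTc).ker
  rw [hH] at hidx
  have hK : Nat.card (MonoidHom.transferSylow T hTc).ker = m := by omega
  rw [hK] at hidx
  have hm0 : 0 < m := by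
    rcases Nat.eq_zero_or_pos m with h | h
    · exact absurd (h ▸ dvd_zero 2) hm
    · exact h
  nlinarith [hidx]

theorem uniqueSylow5 : StmtUniqueSylow5.{u} := by
  intro H _ _ hcard P R
  have : Fact (Nat.Prime 5) := ⟨by norm_num⟩
  -- the normal subgroup `K` of index 2
  obtain ⟨m, a, hm2, hHm, hma⟩ : ∃ m a : ℕ, ¬ 2 ∣ m ∧ Nat.card H = 2 * m ∧ m = 5 ^ 2 * a ∧
      (a = 3 ∨ a = 9) := by
    rcases hcard with h | h
    · exact ⟨75, 3, by decide, by rw [h], by norm_num, Or.inl rfl⟩
    · exact ⟨225, 9, by decide, by rw [h], by norm_num, Or.inr rfl⟩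
  obtain ⟨hm25, ha⟩ := hma
  obtain ⟨K, hKn, hKc, hKi⟩ := exists_normal_of_card_two_mul_odd m hm2 hHm
  have h5a : ¬ 5 ∣ a := by rcases ha with rfl | rfl <;> decide
  have hH5 : Nat.card H = 5 ^ 2 * (2 * a) := by rw [hHm, hm25]; ring
  have h5a' : ¬ 5 ∣ 2 * a := by rcases ha with rfl | rfl <;> decide
  have hP25 : Nat.card (P : Subgroup H) = 25 := by
    have h := sylow_card_pk 5 2 (2 * a) hH5 h5a' P
    simpa using h
  have hR25 : Nat.card (R : Subgroup H) = 25 := by
    have h := sylow_card_pk 5 2 (2 * a) hH5 h5a' R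
    simpa using h
  have hPK : (P : Subgroup H) ≤ K := le_of_index_two_of_card K hKi _ hP25
  have hRK : (R : Subgroup H) ≤ K := le_of_index_two_of_card K hKi _ hR25
  -- `K` has only one Sylow 5-subgroup
  have hK5 : Nat.card K = 5 ^ 2 * a := by rw [hKc, hm25]
  have hone : Nat.card (Sylow 5 K) = 1 := by
    obtain ⟨Q⟩ : Nonempty (Sylow 5 K) := inferInstance
    have hQ := sylow_card_pk 5 2 a hK5 h5a Q
    have hdvd : Nat.card (Sylow 5 K) ∣ a := by
      have h1 := Q.card_dvd_index
      have h2 := Subgroup.card_mul_index (Q : Subgroup K)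
      rw [hQ, hK5] at h2
      have h3 : (Q : Subgroup K).index = a := by
        have : (0 : ℕ) < 5 ^ 2 := by norm_num
        exact Nat.eq_of_mul_eq_mul_left this h2
      rwa [h3] at h1
    have hmod : Nat.card (Sylow 5 K) % 5 = 1 := by
      have := card_sylow_modEq_one 5 K
      exact this
    rcases ha with rfl | rfl
    · have hmem : Nat.card (Sylow 5 K) ∈ Nat.divisors 3 := Nat.mem_divisors.2 ⟨hdvd, by norm_num⟩
      generalize Nat.card (Sylow 5 K) = n at hmem hmod ⊢
      simp only [Nat.divisors_ofNat, Finset.mem_insert, Finset.mem_singleton] at hmem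
      omega
    · have hmem : Nat.card (Sylow 5 K) ∈ Nat.divisors 9 := Nat.mem_divisors.2 ⟨hdvd, by norm_num⟩
      generalize Nat.card (Sylow 5 K) = n at hmem hmod ⊢
      simp only [Nat.divisors_ofNat, Finset.mem_insert, Finset.mem_singleton] at hmem
      omega
  have hsub : Subsingleton (Sylow 5 K) := (Nat.card_eq_one_iff_unique.1 hone).1
  have heq : P.subtype hPK = R.subtype hRK := Subsingleton.elim _ _
  have heq' : (P : Subgroup H).subgroupOf K = (R : Subgroup H).subgroupOf K := by
    have := congrArg (fun S : Sylow 5 K => (S : Subgroup K)) heq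
    simpa using this
  rw [Subgroup.subgroupOf_inj, inf_eq_left.2 hPK, inf_eq_left.2 hRK] at heq'
  exact Sylow.ext heq'

end Cfsg.Agent.H56.Census
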