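import Cfsg.Agent.H2.CensusStmts
import Cfsg.Agent.H11.SmallSimple
import Cfsg.Agent.H56.CensusB

set_option autoImplicit false

open Cfsg Cfsg.Agent.H2.Census

universe u

namespace Cfsg.Agent.H56.Census

open Subgroup

/-- The Sylow `5`-subgroups `R ≠ P` meeting `P` non-trivially. -/
def thick {G : Type*} [Group G] (P : Sylow 5 G) : Set (Sylow 5 G) :=
  {R | R ≠ P ∧ (P : Subgroup G) ⊓ (R : Subgroup G) ≠ ⊥}

theorem thick_smul_mem {G : Type*} [Group G] (P : Sylow 5 G) {g : G}
    (hg : g ∈ normalizer ((P : Subgroup G) : Set G)) {R : Sylow 5 G} (hR : R ∈ thick P) :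
    g • R ∈ thick P := by
  obtain ⟨hRP, hne⟩ := hR
  have hgP : g • P = P := Sylow.smul_eq_iff_mem_normalizer.2 hg
  refine ⟨?_, ?_⟩
  · intro h
    apply hRP
    have h' : g • R = g • P := by rw [hgP]; exact h
    exact MulAction.injective g h'
  · intro hbot
    apply hne
    rw [Subgroup.eq_bot_iff_forall] at hbot ⊢
    intro y hy
    have hy1 : g * y * g⁻¹ ∈ (P : Subgroup G) := (mem_normalizer_iff.1 hg y).1 hy.1
    have hy2 : g * y * g⁻¹ ∈ ((g • R : Sylow 5 G) : Subgroup G) := by
      rw [Sylow.coe_subgroup_smul]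
      have h0 := Subgroup.smul_mem_pointwise_smul y (MulAut.conj g) (R : Subgroup G) hy.2
      simpa [MulAut.smul_def] using h0
    have h1 := hbot (g * y * g⁻¹) ⟨hy1, hy2⟩
    have e : y = g⁻¹ * (g * y * g⁻¹) * g := by group
    rw [e, h1]; group

/-- `thick P` as a sub-action of a subgroup `K ≤ N(P)`. -/
def thickAct {G : Type*} [Group G] (P : Sylow 5 G) (K : Subgroup G)
    (hK : K ≤ normalizer ((P : Subgroup G) : Set G)) : SubMulAction K (Sylow 5 G) where
  carrier := thick P
  smul_mem' := by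
    rintro ⟨g, hg⟩ R hR
    exact thick_smul_mem P (hK hg) hR

theorem no_simple_5400 {G : Type u} [Group G] [Finite G] [IsSimpleGroup G]
    (hC : StmtDisjointSylow.{u}) (hD : StmtThick5400.{u}) (h : Nat.card G = 5400) : False := by
  have hf5 : Fact (Nat.Prime 5) := ⟨by norm_num⟩
  have hf3 : Fact (Nat.Prime 3) := ⟨by norm_num⟩
  have hnc : ¬ IsCyclic G := by
    apply Cfsg.Agent.H11.not_isCyclic_of_not_isMulCommutative
    intro hc
    have hp : (Nat.card G).Prime := Group.is_simple_iff_prime_card.1 inferInstance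
    rw [h] at hp
    norm_num at hp
  have h5 : (5 : ℕ) ∣ Nat.card G := by rw [h]; norm_num
  have hcard25 : ∀ R : Sylow 5 G, Nat.card (R : Subgroup G) = 25 := by
    intro R
    have h0 := sylow_card_pk 5 2 216 (by rw [h]; norm_num) (by norm_num) R
    simpa using h0
  obtain ⟨P⟩ : Nonempty (Sylow 5 G) := inferInstance
  have hP25 := hcard25 P
  have hPcomm : ∀ a ∈ (P : Subgroup G), ∀ b ∈ (P : Subgroup G), a * b = b * a := by
    have hc : IsMulCommutative (P : Subgroup G) :=
      IsPGroup.isMulCommutative_of_card_eq_prime_sq (p := 5) (by rw [hP25]; norm_num)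
    intro a ha b hb
    have h0 := hc.is_comm.comm ⟨a, ha⟩ ⟨b, hb⟩
    exact congrArg Subtype.val h0
  -- the number of Sylow 5-subgroups is 36 and `|N(P)| = 150`
  obtain ⟨-, hn2, -, hn4⟩ := Cfsg.Agent.H11.sylow_card_facts hnc 5 h5
  have hNn := Cfsg.Agent.H11.card_normalizer_mul_card_sylow 5 P
  have hPN : Nat.card (P : Subgroup G) ∣ Nat.card (normalizer ((P : Subgroup G) : Set G)) :=
    Subgroup.card_dvd_of_le le_normalizer
  have hself := Cfsg.Agent.H11.not_selfNormalizing_of_comm hnc 5 h5 P hPcomm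
  rw [hP25] at hPN hself
  rw [h] at hn4 hNn
  have hn36 : Nat.card (Sylow 5 G) = 36 ∧
      Nat.card (normalizer ((P : Subgroup G) : Set G)) = 150 := by
    generalize Nat.card (Sylow 5 G) = n at hn2 hn4 hNn ⊢
    generalize Nat.card (normalizer ((P : Subgroup G) : Set G)) = N at hPN hself hNn ⊢
    obtain ⟨k, rfl⟩ := hPN
    have hkn : k * n = 216 := by nlinarith [hNn]
    have hmem : n ∈ Nat.divisors 216 := Nat.mem_divisors.2 ⟨Dvd.intro_left k hkn, by norm_num⟩
    simp only [Nat.divisors_ofNat, Finset.mem_insert, Finset.mem_singleton] at hmem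
    have hcases : n = 1 ∨ n = 6 ∨ n = 36 ∨ n = 216 := by omega
    rcases hcases with rfl | rfl | rfl | rfl
    · exact absurd hn4 (by decide)
    · exact absurd hn4 (by decide)
    · exact ⟨rfl, by omega⟩
    · exact (hself (by omega)).elim
  obtain ⟨hn, hN⟩ := hn36
  -- an element `x` of order 3 in `N(P)`
  obtain ⟨x0, hx0⟩ := exists_prime_orderOf_dvd_card'
    (G := normalizer ((P : Subgroup G) : Set G)) 3 (by rw [hN]; norm_num)
  obtain ⟨x, hxN, hxo⟩ : ∃ x : G, x ∈ normalizer ((P : Subgroup G) : Set G) ∧ orderOf x = 3 :=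
    ⟨x0.1, x0.2, by rw [← hx0, Subgroup.orderOf_coe]⟩
  have hK : zpowers x ≤ normalizer ((P : Subgroup G) : Set G) := by
    rw [zpowers_le]; exact hxN
  have hKp : IsPGroup 3 (zpowers x) :=
    IsPGroup.of_card (n := 1) (by rw [Nat.card_zpowers, hxo, pow_one])
  have hmod := hKp.card_modEq_card_fixedPoints (thickAct P (zpowers x) hK)
  have hfix : IsEmpty (MulAction.fixedPoints (zpowers x) (thickAct P (zpowers x) hK)) := by
    constructor
    rintro ⟨⟨R, hR⟩, hfixed⟩
    have hxR : x • R = R := by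
      have h0 := hfixed ⟨x, mem_zpowers x⟩
      exact congrArg Subtype.val h0
    obtain ⟨hRP, hne⟩ := hR
    have hxNR : x ∈ normalizer ((R : Subgroup G) : Set G) :=
      Sylow.smul_eq_iff_mem_normalizer.1 hxR
    have hLP : (P : Subgroup G) ⊓ (R : Subgroup G) ≤ (P : Subgroup G) := inf_le_left
    have hL5 : Nat.card ((P : Subgroup G) ⊓ (R : Subgroup G) : Subgroup G) = 5 := by
      have hd : Nat.card ((P : Subgroup G) ⊓ (R : Subgroup G) : Subgroup G) ∣ 25 :=
        hP25 ▸ Subgroup.card_dvd_of_le hLP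
      have h1 : Nat.card ((P : Subgroup G) ⊓ (R : Subgroup G) : Subgroup G) ≠ 1 :=
        fun h1 => hne (Subgroup.card_eq_one.1 h1)
      have h25 : Nat.card ((P : Subgroup G) ⊓ (R : Subgroup G) : Subgroup G) ≠ 25 := by
        intro h25
        apply hRP
        have e : (P : Subgroup G) ⊓ (R : Subgroup G) = (P : Subgroup G) :=
          Subgroup.eq_of_le_of_card_ge hLP (by rw [h25, hP25])
        have hPR : (P : Subgroup G) ≤ (R : Subgroup G) := by rw [← e]; exact inf_le_right
        have e2 : (P : Subgroup G) = (R : Subgroup G) :=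
          Subgroup.eq_of_le_of_card_ge hPR (by rw [hP25, hcard25 R])
        exact (Sylow.ext e2).symm
      have hmem : Nat.card ((P : Subgroup G) ⊓ (R : Subgroup G) : Subgroup G) ∈ Nat.divisors 25 :=
        Nat.mem_divisors.2 ⟨hd, by norm_num⟩
      generalize Nat.card ((P : Subgroup G) ⊓ (R : Subgroup G) : Subgroup G) = n at hmem h1 h25 ⊢
      simp only [Nat.divisors_ofNat, Finset.mem_insert, Finset.mem_singleton] at hmem
      omega
    obtain ⟨-, h50⟩ := hD G h P ((P : Subgroup G) ⊓ (R : Subgroup G)) hLP hL5 R hRP inf_le_right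
    have hxL : x ∈ normalizer (((P : Subgroup G) ⊓ (R : Subgroup G) : Subgroup G) : Set G) := by
      rw [mem_normalizer_iff]
      intro y
      rw [Subgroup.mem_inf, Subgroup.mem_inf, ← mem_normalizer_iff.1 hxN y,
        ← mem_normalizer_iff.1 hxNR y]
    have hdvd : orderOf x ∣ 50 := by
      rw [← h50]
      exact Subgroup.orderOf_dvd_natCard _ (Subgroup.mem_inf.2 ⟨hxN, hxL⟩)
    rw [hxo] at hdvd
    norm_num at hdvd
  have hT3 : 3 ∣ (thick P).ncard := by
    have h0 : Nat.card (MulAction.fixedPoints (zpowers x) (thickAct P (zpowers x) hK)) = 0 :=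
      Nat.card_of_isEmpty
    rw [h0] at hmod
    have h1 : Nat.card (thickAct P (zpowers x) hK) = (thick P).ncard :=
      Nat.card_coe_set_eq (thick P)
    rw [h1] at hmod
    exact (Nat.modEq_zero_iff_dvd).1 hmod
  -- the count
  have hU := hC G 5 P
  rw [hP25] at hU
  have hsplit : Nat.card (Sylow 5 G) = 1 + (thick P).ncard +
      Set.ncard {R : Sylow 5 G | (P : Subgroup G) ⊓ (R : Subgroup G) = ⊥} := by
    rw [← Set.ncard_univ]
    have huniv : (Set.univ : Set (Sylow 5 G)) = ({P} ∪ thick P) ∪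
        {R : Sylow 5 G | (P : Subgroup G) ⊓ (R : Subgroup G) = ⊥} := by
      ext R
      simp only [Set.mem_univ, Set.mem_union, Set.mem_singleton_iff, thick, Set.mem_ofPred_eq,
        true_iff]
      by_cases h1 : R = P
      · exact Or.inl (Or.inl h1)
      · by_cases h2 : (P : Subgroup G) ⊓ (R : Subgroup G) = ⊥
        · exact Or.inr h2
        · exact Or.inl (Or.inr ⟨h1, h2⟩)
    have hd1 : Disjoint ({P} : Set (Sylow 5 G)) (thick P) := by
      rw [Set.disjoint_singleton_left]
      intro hmem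
      exact hmem.1 rfl
    have hd2 : Disjoint (({P} : Set (Sylow 5 G)) ∪ thick P)
        {R : Sylow 5 G | (P : Subgroup G) ⊓ (R : Subgroup G) = ⊥} := by
      rw [Set.disjoint_union_left]
      constructor
      · rw [Set.disjoint_singleton_left]
        intro hmem
        have hbot : (P : Subgroup G) ⊓ (P : Subgroup G) = ⊥ := hmem
        rw [inf_idem] at hbot
        have h1 : Nat.card (P : Subgroup G) = 1 := Subgroup.card_eq_one.2 hbot
        omega
      · rw [Set.disjoint_left]
        rintro R ⟨-, hne⟩ hbot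
        exact hne hbot
    rw [huniv, Set.ncard_union_eq hd2 (Set.toFinite _) (Set.toFinite _),
      Set.ncard_union_eq hd1 (Set.toFinite _) (Set.toFinite _), Set.ncard_singleton]
  rw [hn] at hsplit
  obtain ⟨a, ha⟩ := hT3
  obtain ⟨b, hb⟩ := hU
  omega

end Cfsg.Agent.H56.Census
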