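import Mathlib
import Cfsg.Agent.H56.MCA

set_option autoImplicit false

/-!
# S1775 (helper56): images of 2-components of `L_{2'}(C(x)) ∩ C(y)` in `C(y)/O(C(y))`
-/

namespace Cfsg.Agent.H56.MC

open Cfsg Subgroup
open Cfsg.Agent.H56.LB
open scoped commutatorElement

universe u

/-- If `F*(G)` is simple and not commutative then no involution is central. -/
theorem centralizer_ne_top_of_genFitting_simple {G : Type u} [Group G]
    (hF : IsSimpleGroup ↥(generalizedFittingSubgroup G))
    (hF' : ¬ IsMulCommutative ↥(generalizedFittingSubgroup G)) (y : G) (hy : y ≠ 1) :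
    centralizer ({y} : Set G) ≠ ⊤ := by
  intro h
  have hyc : y ∈ center G := by
    rw [mem_center_iff]
    intro g
    have h1 : g ∈ centralizer ({y} : Set G) := by rw [h]; exact mem_top g
    exact (mem_centralizer_singleton_iff.mp h1)
  have hcF : center G ≤ generalizedFittingSubgroup G := by
    have h1 : center G ≤ fittingSubgroup G :=
      le_sSup ⟨inferInstance, H27.nilpotent_of_commutator_central (center G)
        (fun x _ a ha => (mem_center_iff.mp ha x).symm)⟩
    exact h1.trans le_sup_right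
  have hyF : y ∈ generalizedFittingSubgroup G := hcF hyc
  have hc : (⟨y, hyF⟩ : ↥(generalizedFittingSubgroup G)) ∈ center ↥(generalizedFittingSubgroup G) := by
    rw [mem_center_iff]
    intro g
    exact Subtype.ext (mem_center_iff.mp hyc g)
  rcases (center ↥(generalizedFittingSubgroup G)).normal_of_characteristic.eq_bot_or_eq_top with h1 | h1
  · rw [h1, mem_bot] at hc
    exact hy (congrArg Subtype.val hc)
  · apply hF'
    constructor
    constructor
    intro a b
    have : b ∈ center ↥(generalizedFittingSubgroup G) := by rw [h1]; exact mem_top b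
    exact mem_center_iff.mp this a

theorem s1775_main {G : Type u} [Group G] [Finite G]
    (hF : IsSimpleGroup ↥(generalizedFittingSubgroup G))
    (hF' : ¬ IsMulCommutative ↥(generalizedFittingSubgroup G))
    (hsec : ∀ (H : Subgroup G) (N : Subgroup ↥H) [N.Normal], (H ≠ ⊤ ∨ N ≠ ⊥) →
      HasBProperty (↥H ⧸ N))
    (x y : G) (hx : orderOf x = 2) (hy : orderOf y = 2) (hxy : x * y = y * x)
    (J : Subgroup ↥((pLayer 2 ↥(centralizer ({x} : Set G))).map (centralizer ({x} : Set G)).subtype
      ⊓ centralizer ({y} : Set G)))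
    (hJ : IsPComponent 2 J) :
    IsComponent
        ((((J.map (Subgroup.subtype _)).subgroupOf (centralizer ({y} : Set G))).map
          (QuotientGroup.mk' (oddCore ↥(centralizer ({y} : Set G))))).subgroupOf
          (centralizer ({(QuotientGroup.mk' (oddCore ↥(centralizer ({y} : Set G)))
            ⟨x, mem_centralizer_singleton_iff.mpr hxy⟩ :
              ↥(centralizer ({y} : Set G)) ⧸ oddCore ↥(centralizer ({y} : Set G)))} : Set _))) ∧
      ∀ E : Subgroup G, E ≤ centralizer ({x} : Set G) ⊓ centralizer ({y} : Set G) →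
        Odd (Nat.card ↥E) →
        (∀ j ∈ J.map (Subgroup.subtype _), ∀ e ∈ E, j * e * j⁻¹ ∈ E) →
          ⁅J.map (Subgroup.subtype _), E⁆ ≤
            (oddCore ↥(centralizer ({y} : Set G))).map (centralizer ({y} : Set G)).subtype := by
  have hp2 : Fact (Nat.Prime 2) := ⟨Nat.prime_two⟩
  obtain ⟨Cx, hCx⟩ : ∃ Cx : Subgroup G, Cx = centralizer ({x} : Set G) := ⟨_, rfl⟩
  obtain ⟨Cy, hCy⟩ : ∃ Cy : Subgroup G, Cy = centralizer ({y} : Set G) := ⟨_, rfl⟩
  obtain ⟨Lx, hLx⟩ : ∃ Lx : Subgroup G, Lx = (pLayer 2 ↥(centralizer ({x} : Set G))).map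
      (centralizer ({x} : Set G)).subtype := ⟨_, rfl⟩
  obtain ⟨JG, hJGdef⟩ : ∃ JG : Subgroup G, JG = J.map (Subgroup.subtype _) := ⟨_, rfl⟩
  rw [← hJGdef]
  -- `JG` is a 2-component of `D = Lx ⊓ C(y)`
  have hJG : IsPComponentOf 2 JG (Lx ⊓ centralizer ({y} : Set G)) := by
    rw [hJGdef, hLx]
    refine ⟨map_subtype_le _, ?_⟩
    have h1 : (J.map (Subgroup.subtype _)).subgroupOf
        ((pLayer 2 ↥(centralizer ({x} : Set G))).map (centralizer ({x} : Set G)).subtype
          ⊓ centralizer ({y} : Set G)) = J :=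
      comap_map_eq_self_of_injective (subtype_injective _) J
    rw [h1]; exact hJ
  have hLxle : Lx ≤ centralizer ({x} : Set G) := by rw [hLx]; exact map_subtype_le _
  have hLxn : centralizer ({x} : Set G) ≤ normalizer (Lx : Set G) := by
    rw [hLx]
    have := H29.pLayer_normal 2 ↥(centralizer ({x} : Set G))
    exact TW.le_nzr_map_subtype _ _
  have hnorm : centralizer ({x} : Set G) ⊓ centralizer ({y} : Set G) ≤
      normalizer ((Lx ⊓ centralizer ({y} : Set G) : Subgroup G) : Set G) := by
    apply TW.le_nzr_of_conj_mem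
    intro c hc d hd
    exact mem_inf.mpr ⟨TW.conj_mem_of_mem_nzr (hLxn (mem_inf.mp hc).1) (mem_inf.mp hd).1,
      (centralizer ({y} : Set G)).mul_mem ((centralizer ({y} : Set G)).mul_mem (mem_inf.mp hc).2
        (mem_inf.mp hd).2) ((centralizer ({y} : Set G)).inv_mem (mem_inf.mp hc).2)⟩
  have hJ2 : IsPComponentOf 2 JG (centralizer ({x} : Set G) ⊓ centralizer ({y} : Set G)) :=
    pcompIn_extend hJG (inf_le_inf_right _ hLxle) hnorm
  have hJGy : JG ≤ centralizer ({y} : Set G) := hJ2.1.trans inf_le_right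
  -- transfer to `Y = C(y)`
  obtain ⟨x', hx'⟩ : ∃ x' : ↥(centralizer ({y} : Set G)),
      x' = ⟨x, mem_centralizer_singleton_iff.mpr hxy⟩ := ⟨_, rfl⟩
  rw [← hx']
  have hx'2 : orderOf x' = 2 := by
    rw [← Subgroup.orderOf_coe, hx']; exact hx
  have hcmap : (centralizer ({x'} : Set ↥(centralizer ({y} : Set G)))).map
      (centralizer ({y} : Set G)).subtype =
      centralizer ({x} : Set G) ⊓ centralizer ({y} : Set G) := by
    ext g
    constructor
    · rintro ⟨c, hc, rfl⟩
      refine mem_inf.mpr ⟨?_, c.2⟩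
      have hc' : c ∈ centralizer ({x'} : Set ↥(centralizer ({y} : Set G))) := hc
      rw [mem_centralizer_singleton_iff] at hc' ⊢
      have := congrArg Subtype.val hc'
      rw [hx'] at this
      exact this
    · intro hg
      have hg1 := mem_centralizer_singleton_iff.mp (mem_inf.mp hg).1
      have hg2 := (mem_inf.mp hg).2
      refine ⟨⟨g, hg2⟩, ?_, rfl⟩
      show (⟨g, hg2⟩ : ↥(centralizer ({y} : Set G))) ∈
        centralizer ({x'} : Set ↥(centralizer ({y} : Set G)))
      rw [mem_centralizer_singleton_iff]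
      apply Subtype.ext
      rw [hx']
      exact hg1
  have hJY : IsPComponentOf 2 (JG.subgroupOf (centralizer ({y} : Set G)))
      (centralizer ({x'} : Set ↥(centralizer ({y} : Set G)))) := by
    apply pcompIn_of_map_injective (centralizer ({y} : Set G)).subtype (subtype_injective _)
    rw [hcmap, map_subgroupOf_eq_of_le hJGy]
    exact hJ2
  have hyne : centralizer ({y} : Set G) ≠ ⊤ := by
    apply centralizer_ne_top_of_genFitting_simple hF hF'
    intro h
    rw [h, orderOf_one] at hy
    norm_num at hy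
  have hBQ : HasBProperty (↥(centralizer ({y} : Set G)) ⧸ oddCore ↥(centralizer ({y} : Set G))) :=
    hsec _ _ (Or.inl hyne)
  obtain ⟨hpc, hcomp⟩ := comp_image_of_pcomp x' hx'2 hBQ hJY
  refine ⟨hcomp, ?_⟩
  intro E hE hodd hinv
  obtain ⟨π, hπ⟩ : ∃ π : ↥(centralizer ({y} : Set G)) →*
      ↥(centralizer ({y} : Set G)) ⧸ oddCore ↥(centralizer ({y} : Set G)),
      π = QuotientGroup.mk' (oddCore ↥(centralizer ({y} : Set G))) := ⟨_, rfl⟩
  rw [← hπ] at hpc hcomp
  have hEy : E ≤ centralizer ({y} : Set G) := hE.trans inf_le_right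
  -- the images
  have hcI : TW.CompIn ((JG.subgroupOf (centralizer ({y} : Set G))).map π)
      (centralizer ({π x'} : Set _)) := ⟨hpc.1, hcomp⟩
  have hEC : (E.subgroupOf (centralizer ({y} : Set G))).map π ≤ centralizer ({π x'} : Set _) := by
    rintro _ ⟨e, he, rfl⟩
    rw [mem_centralizer_singleton_iff, ← map_mul, ← map_mul]
    congr 1
    rw [hx']
    apply Subtype.ext
    exact mem_centralizer_singleton_iff.mp (mem_inf.mp (hE (mem_subgroupOf.mp he))).1
  have hnz : (JG.subgroupOf (centralizer ({y} : Set G))).map π ≤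
      normalizer (((E.subgroupOf (centralizer ({y} : Set G))).map π : Subgroup _) : Set _) := by
    apply TW.le_nzr_of_conj_mem
    rintro _ ⟨j, hj, rfl⟩ _ ⟨e, he, rfl⟩
    refine ⟨j * e * j⁻¹, ?_, by simp⟩
    have hj' : (j : G) ∈ JG := mem_subgroupOf.mp hj
    have he' : (e : G) ∈ E := mem_subgroupOf.mp he
    exact mem_subgroupOf.mpr (hinv _ hj' _ he')
  have hnle : ¬ (JG.subgroupOf (centralizer ({y} : Set G))).map π ≤
      (E.subgroupOf (centralizer ({y} : Set G))).map π := by
    intro hle
    have h1 : 2 ∣ Nat.card ↥((JG.subgroupOf (centralizer ({y} : Set G))).map π) :=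
      (pcompIn_iff.mp hpc).2.2.dvd_card
    have h2 := card_dvd_of_le hle
    have h3 : Nat.card ↥((E.subgroupOf (centralizer ({y} : Set G))).map π) ∣
        Nat.card ↥(E.subgroupOf (centralizer ({y} : Set G))) := card_map_dvd _ _
    have h4 : Nat.card ↥(E.subgroupOf (centralizer ({y} : Set G))) = Nat.card ↥E :=
      Nat.card_congr (subgroupOfEquivOfLe hEy).toEquiv
    rw [h4] at h3
    have h5 : 2 ∣ Nat.card ↥E := h1.trans (h2.trans h3)
    exact (Nat.not_even_iff_odd.mpr hodd) (even_iff_two_dvd.mpr h5)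
  have hcomm := compIn_comm_of_normalizes hcI hEC hnz hnle
  rw [commutator_le]
  intro j hj e he
  have h1 := hcomm (π ⟨j, hJGy hj⟩) (mem_map_of_mem π (mem_subgroupOf.mpr hj))
    (π ⟨e, hEy he⟩) (mem_map_of_mem π (mem_subgroupOf.mpr he))
  have h2 : π (⁅(⟨j, hJGy hj⟩ : ↥(centralizer ({y} : Set G))), ⟨e, hEy he⟩⁆) = 1 := by
    rw [commutatorElement_def, map_mul, map_mul, map_mul, h1, map_inv, map_inv]
    group
  rw [hπ] at h2
  have h3 := (QuotientGroup.eq_one_iff _).mp h2
  exact ⟨_, h3, rfl⟩

end Cfsg.Agent.H56.MC
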