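import Cfsg.Agent.H56.SqDefs

/-!
# S4625 team project: assembly from the family pieces
-/

set_option autoImplicit false

namespace Cfsg.Agent.H56.Sq

open Cfsg

theorem asm (hPSL : PSLStmt) (hPSp : PSpStmt) (hPSU : PSUStmt) (hPlus : PPlusStmt)
    (hMinus : PMinusStmt) (hG2 : G2Stmt) (hF4 : F4Stmt) (hE6 : E6Stmt) (hE7 : E7Stmt)
    (hE8 : E8Stmt) (hTE6 : TwE6Stmt) (hTD4 : TwD4Stmt) (hSz : SzStmt) (hTF4 : TwF4Stmt)
    {G : Type*} [Group G] [Finite G] [IsSimpleGroup G] (hG : Cfsg.IsLieTypeChar 2 G)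
    (P : Sylow 2 G) : ∀ x : (P : Subgroup G), x ^ 2 ∈ commutator (P : Subgroup G) := by
  suffices h : GoodSyl G from h.sqComm P
  rcases hG with h | h | h | h | h | h | h | h | ⟨-, h⟩ | ⟨-, h⟩ | ⟨h3, -⟩
  · obtain ⟨F, iF, iFt, iC, n, hn, hn2, ⟨e⟩⟩ := h
    exact GoodSyl.of_equiv e (hPSL F n hn hn2 e.symm.isSimpleGroup)
  · obtain ⟨F, iF, iFt, iC, m, hm, hm2, ⟨e⟩⟩ := h
    exact GoodSyl.of_equiv e (hPSp F m hm hm2 e.symm.isSimpleGroup)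
  · obtain ⟨F, iF, iFt, iC, n, q, hcard, hn, hn3, ⟨e⟩⟩ := h
    exact GoodSyl.of_equiv e (hPSU F n q hcard hn hn3 e.symm.isSimpleGroup)
  · obtain ⟨F, iF, iFt, iC, m, hm, hodd, -⟩ := h
    exfalso
    obtain ⟨k, -, hk⟩ := FiniteField.card F 2
    rw [hk] at hodd
    exact (Nat.not_even_iff_odd.2 hodd) ((Nat.even_pow' k.ne_zero).2 even_two)
  · obtain ⟨F, iF, iFt, iC, m, hm, ⟨e⟩⟩ := h
    exact GoodSyl.of_equiv e (hPlus F m hm e.symm.isSimpleGroup)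
  · obtain ⟨F, iF, iFt, iC, m, a, b, hm, hab, ⟨e⟩⟩ := h
    exact GoodSyl.of_equiv e (hMinus F m a b hm hab e.symm.isSimpleGroup)
  · obtain ⟨F, iF, iFt, iC, h | h | h | h | h⟩ := h
    · obtain ⟨h3', ⟨e⟩⟩ := h
      exact GoodSyl.of_equiv e (hG2 F h3' e.symm.isSimpleGroup)
    · obtain ⟨e⟩ := h
      exact GoodSyl.of_equiv e (hF4 F e.symm.isSimpleGroup)
    · obtain ⟨e⟩ := h
      exact GoodSyl.of_equiv e (hE6 F e.symm.isSimpleGroup)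
    · obtain ⟨e⟩ := h
      exact GoodSyl.of_equiv e (hE7 F e.symm.isSimpleGroup)
    · obtain ⟨e⟩ := h
      exact GoodSyl.of_equiv e (hE8 F e.symm.isSimpleGroup)
  · obtain ⟨K, iK, iKt, iC, q, hq, h | h⟩ := h
    · obtain ⟨hc, ⟨e⟩⟩ := h
      exact GoodSyl.of_equiv e (hTE6 K q hq hc e.symm.isSimpleGroup)
    · obtain ⟨hc, ⟨e⟩⟩ := h
      exact GoodSyl.of_equiv e (hTD4 K q hq hc e.symm.isSimpleGroup)
  · obtain ⟨F, iF, iFt, m, hm, hc, ⟨e⟩⟩ := h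
    exact GoodSyl.of_equiv e (hSz F m hm hc)
  · obtain ⟨K, iK, iKt, m, hm, hc, ⟨e⟩⟩ := h
    exact GoodSyl.of_equiv e (hTF4 K m hm hc)
  · exact absurd h3 (by norm_num)

end Cfsg.Agent.H56.Sq
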