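import Cfsg.Agent.H56.SqDefs
import Cfsg.Agent.H8.SzSyl2
import Cfsg.Agent.H8.SzLie

/-!
# S4625 team project: the piece for the Suzuki groups

The Sylow 2-subgroup `szU` of `Sz(q)` has `x ^ 2` central and centre = derived group (helper8's
library `H8/SzSyl`, `H8/SzSyl2`).
-/

set_option autoImplicit false

namespace Cfsg.Agent.H56.Sq

open Cfsg Cfsg.Agent.H8

theorem sqT_szU {F : Type*} [Field F] [Fintype F] {m : ℕ} (hm : 1 ≤ m)
    (hF : Fintype.card F = 2 ^ (2 * m + 1)) : SqT (szU (m := m) hF) := by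
  intro x
  obtain ⟨a, b, rfl⟩ := szUM_surj hF x
  rw [pow_two, szUM_sq, ← szU_center_eq hm hF]
  exact (szUM_mem_center hm hF 0 _).2 rfl

theorem goodSyl_sz {F : Type*} [Field F] [Fintype F] {m : ℕ} (hm : 1 ≤ m)
    (hF : Fintype.card F = 2 ^ (2 * m + 1)) : GoodSyl (Cfsg.Sz F m) := by
  have : Fact (Nat.Prime 2) := ⟨Nat.prime_two⟩
  refine ⟨szU (m := m) hF, ?_, ?_, sqT_szU hm hF⟩
  · rw [← szUSyl_coe hm hF]
    exact (szUSyl hm hF).isPGroup'
  · rw [← szUSyl_coe hm hF]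
    exact (szUSyl hm hF).not_dvd_index

theorem sz : SzStmt := fun _ _ _ _ hm hF =>
  GoodSyl.of_equiv (lieSzEquiv hm hF).symm (goodSyl_sz hm hF)

example : Cfsg.Agent.H56.Sq.SzStmt := sz

end Cfsg.Agent.H56.Sq
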