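import Mathlib
import Cfsg.Agent.H56.TWC

set_option autoImplicit false

/-!
# Thompson–Wielandt: index bounds (helper56, for S3688 / S3693)

For two subgroups `M`, `N` with cores `A₁ = core_M(M ∩ N)`, `B₁ = core_N(M ∩ N)`,
`A₂ = core_M(A₁ ∩ B₁)`: `|M : A₁|` divides `|M : M ∩ N|!` and `|A₁ : A₂|` divides
`((|N : M ∩ N| - 1)!) ^ |M : M ∩ N|`.  Together with `tw_main` this gives the dichotomy `tw_alt`.
-/

namespace Cfsg.Agent.H56.TW

open Cfsg Subgroup
open scoped Nat

universe u v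

section typelevel

variable {X : Type u} [Group X] [Finite X]

theorem index_normalCore_dvd (H : Subgroup X) : H.normalCore.index ∣ (H.index)! := by
  rw [Subgroup.normalCore_eq_ker, Subgroup.index_ker, Subgroup.index_eq_card, ← Nat.card_perm]
  exact Subgroup.card_subgroup_dvd_card _

theorem card_stabilizer_perm {α : Type v} [Finite α] (x : α) :
    Nat.card (MulAction.stabilizer (Equiv.Perm α) x) = (Nat.card α - 1)! := by
  have h1 := Subgroup.card_mul_index (MulAction.stabilizer (Equiv.Perm α) x)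
  rw [MulAction.index_stabilizer_of_transitive, Nat.card_perm] at h1
  have hpos : 0 < Nat.card α := Nat.card_pos_iff.mpr ⟨⟨x⟩, inferInstance⟩
  have h2 : Nat.card α * (Nat.card α - 1)! = (Nat.card α)! := Nat.mul_factorial_pred hpos.ne'
  have h3 : Nat.card (MulAction.stabilizer (Equiv.Perm α) x) * Nat.card α
      = (Nat.card α - 1)! * Nat.card α := by rw [h1, ← h2, mul_comm]
  exact Nat.eq_of_mul_eq_mul_right hpos h3

theorem relIndex_normalCore_dvd (H A : Subgroup X) (hA : A ≤ H) :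
    H.normalCore.relIndex A ∣ (H.index - 1)! := by
  let fA : ↥A →* Equiv.Perm (X ⧸ H) := (MulAction.toPermHom X (X ⧸ H)).comp A.subtype
  have hker : fA.ker = H.normalCore.subgroupOf A := by
    rw [Subgroup.normalCore_eq_ker]; rfl
  have hrange : fA.range ≤ MulAction.stabilizer (Equiv.Perm (X ⧸ H)) ((1 : X) : X ⧸ H) := by
    rintro _ ⟨x, rfl⟩
    rw [MulAction.mem_stabilizer_iff]
    show ((x : X) • ((1 : X) : X ⧸ H)) = ((1 : X) : X ⧸ H)
    rw [MulAction.Quotient.smul_mk, QuotientGroup.eq]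
    simpa using hA x.2
  rw [Subgroup.relIndex, ← hker, Subgroup.index_ker, Subgroup.index_eq_card,
    ← card_stabilizer_perm ((1 : X) : X ⧸ H)]
  exact Subgroup.card_dvd_of_le hrange

theorem index_inf_dvd_of_normal {Y : Type*} [Group Y] (H K : Subgroup Y) [H.Normal] :
    (H ⊓ K).index ∣ H.index * K.index := by
  rw [← Subgroup.relIndex_mul_index (inf_le_right : H ⊓ K ≤ K), Subgroup.inf_relIndex_right]
  exact Nat.mul_dvd_mul_right (Subgroup.relIndex_dvd_index_of_normal H K) _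

theorem index_finset_inf_dvd {Y : Type*} [Group Y] {ι : Type*} [DecidableEq ι] (s : Finset ι)
    (H : ι → Subgroup Y) (hn : ∀ i, (H i).Normal) :
    (s.inf H).index ∣ ∏ i ∈ s, (H i).index := by
  induction s using Finset.induction_on with
  | empty => simp
  | insert a s ha ih =>
    rw [Finset.inf_insert, Finset.prod_insert ha]
    have := hn a
    exact (index_inf_dvd_of_normal (H a) (s.inf H)).trans (Nat.mul_dvd_mul_left _ ih)

end typelevel

variable {G : Type u} [Group G] [Finite G]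

omit [Finite G] in
theorem coreIn_subgroupOf (D M : Subgroup G) :
    (coreIn D M).subgroupOf M = (D.subgroupOf M).normalCore := by
  unfold coreIn
  rw [Subgroup.subgroupOf, Subgroup.comap_map_eq_self_of_injective M.subtype_injective]

theorem relIndex_coreIn_dvd (D M : Subgroup G) :
    (coreIn D M).relIndex M ∣ (D.relIndex M)! := by
  rw [Subgroup.relIndex, coreIn_subgroupOf]
  exact index_normalCore_dvd _

theorem relIndex_coreIn_dvd' {D N A : Subgroup G} (hAD : A ≤ D) (hDN : D ≤ N) :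
    (coreIn D N).relIndex A ∣ (D.relIndex N - 1)! := by
  rw [← Subgroup.relIndex_subgroupOf (hAD.trans hDN), coreIn_subgroupOf]
  exact relIndex_normalCore_dvd (D.subgroupOf N) (A.subgroupOf N) (Subgroup.comap_mono hAD)

omit [Finite G] in
theorem card_mul_relIndex' {A M : Subgroup G} (h : A ≤ M) :
    Nat.card A * A.relIndex M = Nat.card M := by
  have h1 := Subgroup.card_mul_index (A.subgroupOf M)
  rwa [Nat.card_congr (Subgroup.subgroupOfEquivOfLe h).toEquiv] at h1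

/-- `|A₁ : A₂|` divides `((|N : M ∩ N| - 1)!) ^ |M : M ∩ N|`. -/
theorem relIndex_second_core_dvd {M N A₁ B₁ A₂ : Subgroup G}
    (hA₁ : A₁ = coreIn (M ⊓ N) M) (hB₁ : B₁ = coreIn (M ⊓ N) N)
    (hA₂ : A₂ = coreIn (A₁ ⊓ B₁) M) :
    A₂.relIndex A₁ ∣ (((M ⊓ N).relIndex N - 1)!) ^ ((M ⊓ N).relIndex M) := by
  classical
  have hA₁M : A₁ ≤ M := hA₁ ▸ coreIn_le_right _ _
  have hA₁D : A₁ ≤ M ⊓ N := hA₁ ▸ coreIn_le_left _ _
  have hA₁N : A₁ ≤ N := hA₁D.trans inf_le_right
  have hMA₁ : M ≤ normalizer (A₁ : Set G) := hA₁ ▸ le_normalizer_coreIn _ _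
  have hNB₁ : N ≤ normalizer (B₁ : Set G) := hB₁ ▸ le_normalizer_coreIn _ _
  let ι := ↥M ⧸ (M ⊓ N).subgroupOf M
  have : Fintype ι := Fintype.ofFinite ι
  let mm : ι → G := fun c => ((Quotient.out c : ↥M) : G)
  have hmm : ∀ c, mm c ∈ M := fun c => (Quotient.out c).2
  let H : ι → Subgroup ↥A₁ := fun c =>
    (B₁.map (MulAut.conj (mm c)).toMonoidHom).subgroupOf A₁
  have hconjA : ∀ m ∈ M, A₁.map (MulAut.conj m).toMonoidHom = A₁ := by
    intro m hm
    ext x
    constructor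
    · rintro ⟨y, hy, rfl⟩
      exact conj_mem_of_mem_nzr (hMA₁ hm) hy
    · intro hx
      refine ⟨m⁻¹ * x * m, ?_, ?_⟩
      · have := conj_mem_of_mem_nzr (hMA₁ (inv_mem hm)) hx
        rwa [inv_inv] at this
      · simp only [MulEquiv.coe_toMonoidHom, MulAut.conj_apply]; group
  have hHn : ∀ c, (H c).Normal := by
    intro c
    apply Subgroup.normal_subgroupOf_of_le_normalizer
    apply le_nzr_of_conj_mem
    rintro x hx _ ⟨z, hz, rfl⟩
    have hx' : (mm c)⁻¹ * x * (mm c) ∈ A₁ := by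
      have := conj_mem_of_mem_nzr (hMA₁ (inv_mem (hmm c))) hx
      rwa [inv_inv] at this
    refine ⟨((mm c)⁻¹ * x * (mm c)) * z * ((mm c)⁻¹ * x * (mm c))⁻¹,
      conj_mem_of_mem_nzr (hNB₁ (hA₁N hx')) hz, ?_⟩
    simp only [MulEquiv.coe_toMonoidHom, MulAut.conj_apply]; group
  have hHi : ∀ c, (H c).index ∣ ((M ⊓ N).relIndex N - 1)! := by
    intro c
    have h1 : (H c).index = (B₁.map (MulAut.conj (mm c)).toMonoidHom).relIndex
        (A₁.map (MulAut.conj (mm c)).toMonoidHom) := by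
      rw [hconjA _ (hmm c)]; rfl
    rw [h1, Subgroup.relIndex_map_map_of_injective _ _ (MulAut.conj (mm c)).injective, hB₁]
    exact relIndex_coreIn_dvd' hA₁D inf_le_right
  have hle : Finset.univ.inf H ≤ A₂.subgroupOf A₁ := by
    intro x hx
    rw [Subgroup.mem_subgroupOf, hA₂]
    apply mem_coreIn (hA₁M x.2)
    intro m hm
    refine Subgroup.mem_inf.mpr ⟨conj_mem_of_mem_nzr (hMA₁ hm) x.2, ?_⟩
    let c : ι := QuotientGroup.mk ((⟨m, hm⟩ : ↥M)⁻¹)
    have hxc : x ∈ H c := (Finset.inf_le (Finset.mem_univ c) : Finset.univ.inf H ≤ H c) hx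
    obtain ⟨z, hz, hzx⟩ := hxc
    obtain ⟨t, ht⟩ := QuotientGroup.mk_out_eq_mul ((M ⊓ N).subgroupOf M) ((⟨m, hm⟩ : ↥M)⁻¹)
    have hmc : mm c = m⁻¹ * ((t : ↥M) : G) := by
      have := congrArg Subtype.val ht
      simpa [mm, c] using this
    have htN : ((t : ↥M) : G) ∈ N := (Subgroup.mem_subgroupOf.mp t.2).2
    have hzx' : (x : G) = mm c * z * (mm c)⁻¹ := by
      have h := hzx.symm
      simpa using h
    have e : m * (x : G) * m⁻¹ = ((t : ↥M) : G) * z * ((t : ↥M) : G)⁻¹ := by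
      rw [hzx', hmc]; group
    rw [e]
    exact conj_mem_of_mem_nzr (hNB₁ htN) hz
  calc A₂.relIndex A₁ = (A₂.subgroupOf A₁).index := rfl
    _ ∣ (Finset.univ.inf H).index := Subgroup.index_dvd_of_le hle
    _ ∣ ∏ c ∈ Finset.univ, (H c).index := index_finset_inf_dvd _ _ hHn
    _ ∣ ∏ _c ∈ (Finset.univ : Finset ι), ((M ⊓ N).relIndex N - 1)! :=
        Finset.prod_dvd_prod_of_dvd _ _ (fun c _ => hHi c)
    _ = (((M ⊓ N).relIndex N - 1)!) ^ ((M ⊓ N).relIndex M) := by
        rw [Finset.prod_const, Finset.card_univ, ← Nat.card_eq_fintype_card,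
          ← Subgroup.index_eq_card]
        rfl

theorem card_dvd_of_second_core_eq_bot {M N A₁ B₁ A₂ : Subgroup G}
    (hA₁ : A₁ = coreIn (M ⊓ N) M) (hB₁ : B₁ = coreIn (M ⊓ N) N)
    (hA₂ : A₂ = coreIn (A₁ ⊓ B₁) M) (h0 : A₂ = ⊥) :
    Nat.card M ∣ ((M ⊓ N).relIndex M)! * (((M ⊓ N).relIndex N - 1)!) ^ ((M ⊓ N).relIndex M) := by
  have h1 := relIndex_second_core_dvd hA₁ hB₁ hA₂
  rw [h0, Subgroup.relIndex_bot_left] at h1
  have h2 : (coreIn (M ⊓ N) M).relIndex M ∣ ((M ⊓ N).relIndex M)! := relIndex_coreIn_dvd _ _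
  rw [← hA₁] at h2
  have hA₁M : A₁ ≤ M := hA₁ ▸ coreIn_le_right _ _
  rw [← card_mul_relIndex' hA₁M, mul_comm]
  exact Nat.mul_dvd_mul h2 h1

end Cfsg.Agent.H56.TW
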