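import Mathlib
import Cfsg.Agent.H56.TWD

set_option autoImplicit false

/-!
# Thompson–Wielandt: the dichotomy for point stabilizers (helper56, for S3688 / S3693)

`tw_alt` : for two distinct conjugate core-free maximal subgroups `M`, `N` with
`d = |M : M ∩ N|`: either `F*(M) = O_p(M)` (and `F*(A₁) = O_p(A₁)`, `A₁ ≠ 1`) for some prime `p`,
or `|M|` divides `d! ((d-1)!)^d`.

`tw_action_setup` : the translation from a primitive faithful action.
-/

namespace Cfsg.Agent.H56.TW

open Cfsg Subgroup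
open scoped Nat

universe u v

section typelevel

variable {X : Type u} [Group X] [Finite X]

theorem genFitting_ne_bot [Nontrivial X] : generalizedFittingSubgroup X ≠ ⊥ := by
  intro hFs
  have h := H27.centralizer_genFitting_le (G := X)
  rw [hFs] at h
  obtain ⟨x, hx⟩ := exists_ne (1 : X)
  apply hx
  have hxc : x ∈ Subgroup.centralizer (((⊥ : Subgroup X) : Subgroup X) : Set X) := by
    rw [Subgroup.mem_centralizer_iff]
    intro y hy
    have hy1 : y = 1 := Subgroup.mem_bot.mp hy
    rw [hy1, one_mul, mul_one]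
  exact Subgroup.mem_bot.mp (h hxc)

end typelevel

variable {G : Type u} [Group G]

theorem isCoatom_map_conj {M : Subgroup G} (hmax : IsCoatom M) (g : G) :
    IsCoatom (M.map (MulAut.conj g).toMonoidHom) :=
  ((MulAut.conj g).mapSubgroup.isCoatom_iff M).mpr hmax

theorem normalCore_map_conj {M : Subgroup G} (hcore : M.normalCore = ⊥) (g : G) :
    (M.map (MulAut.conj g).toMonoidHom).normalCore = ⊥ := by
  rw [← le_bot_iff, ← hcore]
  apply Subgroup.normal_le_normalCore.mpr
  intro x hx
  have h1 : g * x * g⁻¹ ∈ M.map (MulAut.conj g).toMonoidHom :=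
    Subgroup.normalCore_le _ ((Subgroup.normalCore_normal _).conj_mem x hx g)
  obtain ⟨m, hm, hmx⟩ := h1
  simp only [MulEquiv.coe_toMonoidHom, MulAut.conj_apply] at hmx
  have : m = x := by
    have h2 : g⁻¹ * (g * m * g⁻¹) * g = g⁻¹ * (g * x * g⁻¹) * g := by rw [hmx]
    rw [show g⁻¹ * (g * m * g⁻¹) * g = m by group, show g⁻¹ * (g * x * g⁻¹) * g = x by group]
      at h2
    exact h2
  rw [← this]; exact hm

/-- **Thompson–Wielandt dichotomy.** -/
theorem tw_alt [Finite G] {M N : Subgroup G} (hmax : IsCoatom M) (hcore : M.normalCore = ⊥)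
    (g : G) (hconj : N = M.map (MulAut.conj g).toMonoidHom) (hne : M ≠ N) :
    (∃ p : ℕ, p.Prime ∧ generalizedFittingSubgroup ↥M = pCore p ↥M ∧
        generalizedFittingSubgroup ↥(coreIn (M ⊓ N) M) = pCore p ↥(coreIn (M ⊓ N) M) ∧
        coreIn (M ⊓ N) M ≠ ⊥) ∨
      Nat.card M ∣ ((M ⊓ N).relIndex M)! * (((M ⊓ N).relIndex M - 1)!) ^ ((M ⊓ N).relIndex M) := by
  have hmax2 : IsCoatom N := hconj ▸ isCoatom_map_conj hmax g
  have hcore2 : N.normalCore = ⊥ := hconj ▸ normalCore_map_conj hcore g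
  have hPM := prim_of_coatom hmax hcore
  have hPN := prim_of_coatom hmax2 hcore2
  have hMN : ¬ M ≤ N := fun h => hne ((hmax.le_iff_eq hmax2.1).mp h).symm
  have hNM : ¬ N ≤ M := fun h => hne ((hmax2.le_iff_eq hmax.1).mp h)
  have e : ↥M ≃* ↥N :=
    (Subgroup.equivMapOfInjective M (MulAut.conj g).toMonoidHom (MulAut.conj g).injective).trans
      (MulEquiv.subgroupCongr hconj.symm)
  have hcardMN : Nat.card M = Nat.card N := Nat.card_congr e.toEquiv
  have hrel : (M ⊓ N).relIndex N = (M ⊓ N).relIndex M := by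
    have h1 := card_mul_relIndex' (inf_le_left : M ⊓ N ≤ M)
    have h2 := card_mul_relIndex' (inf_le_right : M ⊓ N ≤ N)
    rw [← hcardMN, ← h1] at h2
    exact Nat.eq_of_mul_eq_mul_left Nat.card_pos h2
  by_cases hA₂0 : coreIn (coreIn (M ⊓ N) M ⊓ coreIn (M ⊓ N) N) M = ⊥
  · right
    have := card_dvd_of_second_core_eq_bot (M := M) (N := N) rfl rfl rfl hA₂0
    rwa [hrel] at this
  by_cases hB₂0 : coreIn (coreIn (M ⊓ N) M ⊓ coreIn (M ⊓ N) N) N = ⊥
  · right
    have h1 : coreIn (M ⊓ N) N = coreIn (N ⊓ M) N := by rw [inf_comm]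
    have h2 : coreIn (M ⊓ N) M = coreIn (N ⊓ M) M := by rw [inf_comm]
    have h3 : coreIn (coreIn (M ⊓ N) M ⊓ coreIn (M ⊓ N) N) N
        = coreIn (coreIn (M ⊓ N) N ⊓ coreIn (M ⊓ N) M) N := by rw [inf_comm]
    have := card_dvd_of_second_core_eq_bot (M := N) (N := M) h1 h2 h3 hB₂0
    rwa [inf_comm, hrel, ← hcardMN] at this
  · left
    obtain ⟨p, hp, -, hFM, hFA, -, -⟩ :=
      tw_main hPM hPN hMN hNM e rfl rfl rfl rfl hA₂0 hB₂0
    refine ⟨p, hp, hFM, hFA, ?_⟩
    intro h
    apply hA₂0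
    rw [← le_bot_iff, ← h]
    exact (coreIn_le_left _ _).trans inf_le_left

/-- Translation from a primitive faithful action. -/
theorem tw_action_setup {Ω : Type v} [MulAction G Ω] [FaithfulSMul G Ω]
    (hprim : MulAction.IsPreprimitive G Ω) (a b : Ω)
    (hd : 2 ≤ Nat.card (MulAction.orbit (MulAction.stabilizer G a) b)) :
    IsCoatom (MulAction.stabilizer G a) ∧ (MulAction.stabilizer G a).normalCore = ⊥ ∧
      (∃ g : G, MulAction.stabilizer G b
        = (MulAction.stabilizer G a).map (MulAut.conj g).toMonoidHom) ∧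
      MulAction.stabilizer G a ≠ MulAction.stabilizer G b ∧
      (MulAction.stabilizer G a ⊓ MulAction.stabilizer G b).relIndex (MulAction.stabilizer G a)
        = Nat.card (MulAction.orbit (MulAction.stabilizer G a) b) := by
  have := hprim
  have hfin : Finite (MulAction.orbit (MulAction.stabilizer G a) b) :=
    Nat.finite_of_card_ne_zero (by omega)
  have hnt : Nontrivial (MulAction.orbit (MulAction.stabilizer G a) b) :=
    Finite.one_lt_card_iff_nontrivial.mp (by omega)
  have hΩ : Nontrivial Ω := by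
    obtain ⟨x, y, hxy⟩ := hnt
    exact ⟨⟨x, y, fun h => hxy (Subtype.ext h)⟩⟩
  refine ⟨MulAction.IsPreprimitive.isCoatom_stabilizer_of_isPreprimitive G a, ?_, ?_, ?_, ?_⟩
  · rw [← le_bot_iff]
    intro x hx
    rw [Subgroup.mem_bot]
    apply FaithfulSMul.eq_of_smul_eq_smul (α := Ω)
    intro ω
    obtain ⟨k, rfl⟩ := MulAction.exists_smul_eq G a ω
    have h1 : k⁻¹ * x * k⁻¹⁻¹ ∈ MulAction.stabilizer G a :=
      Subgroup.normalCore_le _ ((Subgroup.normalCore_normal _).conj_mem x hx k⁻¹)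
    rw [MulAction.mem_stabilizer_iff, inv_inv, mul_smul, mul_smul, inv_smul_eq_iff] at h1
    rw [h1, one_smul]
  · obtain ⟨k, rfl⟩ := MulAction.exists_smul_eq G a b
    exact ⟨k, MulAction.stabilizer_smul_eq_stabilizer_map_conj k a⟩
  · intro h
    have hsub : Subsingleton (MulAction.orbit (MulAction.stabilizer G a) b) := by
      constructor
      rintro ⟨x, ⟨m, rfl⟩⟩ ⟨y, ⟨m', rfl⟩⟩
      apply Subtype.ext
      have hm : (m : G) ∈ MulAction.stabilizer G b := h ▸ m.2
      have hm' : (m' : G) ∈ MulAction.stabilizer G b := h ▸ m'.2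
      show (m : G) • b = (m' : G) • b
      rw [MulAction.mem_stabilizer_iff.mp hm, MulAction.mem_stabilizer_iff.mp hm']
    exact not_subsingleton _ hsub
  · rw [Subgroup.inf_relIndex_left, Subgroup.relIndex]
    have e : (MulAction.stabilizer G b).subgroupOf (MulAction.stabilizer G a)
        = MulAction.stabilizer (MulAction.stabilizer G a) b := by
      ext x
      rw [Subgroup.mem_subgroupOf, MulAction.mem_stabilizer_iff, MulAction.mem_stabilizer_iff]
      rfl
    rw [e, MulAction.index_stabilizer, Nat.card_coe_set_eq]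

end Cfsg.Agent.H56.TW
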