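import Mathlib
import Cfsg.Agent.H56.TWE

set_option autoImplicit false

/-!
# Thompson–Wielandt: Fitting-free subconstituents (helper56, for S3693)

If the group induced by the two-point stabilizer `G_{ab}` on the suborbit `b^{G_a}` has trivial
Fitting subgroup then `F(G_{ab}) = 1` and `|G_a|` divides `d! ((d-1)!)^d`.
-/

namespace Cfsg.Agent.H56.TW

open Cfsg Subgroup
open scoped Nat

universe u v

/-- A normal `p`-subgroup of `D'` is killed by a homomorphism under which the image of `D'` has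
trivial Fitting subgroup. -/
theorem le_ker_of_fitting_map_eq_bot {X : Type u} {Y : Type v} [Group X] [Group Y] [Finite Y]
    {p : ℕ} [Fact p.Prime] (π : X →* Y) {Q' D' : Subgroup X} (hQD : Q' ≤ D')
    (hn : D' ≤ normalizer (Q' : Set X)) (hp : IsPGroup p Q')
    (hF : fittingSubgroup ↥(D'.map π) = ⊥) : Q' ≤ π.ker := by
  have hn' : D'.map π ≤ normalizer ((Q'.map π : Subgroup Y) : Set Y) :=
    (Subgroup.map_mono hn).trans (Subgroup.le_normalizer_map π)
  have hnorm : ((Q'.map π).subgroupOf (D'.map π)).Normal :=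
    Subgroup.normal_subgroupOf_of_le_normalizer hn'
  have hpR : IsPGroup p ↥((Q'.map π).subgroupOf (D'.map π)) := (hp.map π).comap_subtype
  have hle : (Q'.map π).subgroupOf (D'.map π) ≤ fittingSubgroup ↥(D'.map π) :=
    (H13.le_pCore hnorm hpR).trans (H27.pCore_le_fitting p)
  rw [hF] at hle
  intro x hx
  rw [MonoidHom.mem_ker]
  have hx1 : π x ∈ D'.map π := Subgroup.mem_map_of_mem π (hQD hx)
  have hx2 : (⟨π x, hx1⟩ : ↥(D'.map π)) ∈ (Q'.map π).subgroupOf (D'.map π) := by
    rw [Subgroup.mem_subgroupOf]; exact Subgroup.mem_map_of_mem π hx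
  have := Subgroup.mem_bot.mp (hle hx2)
  exact congrArg Subtype.val this

variable {G : Type u} [Group G]

/-- The normalizer-growth argument: a normal `p`-subgroup `Q` of `M` inside `M ⊓ N` which contains
every normal `p`-subgroup of `M ⊓ N` is trivial, as soon as `N` has a normal `p`-subgroup of the
same order. -/
theorem eq_bot_of_normal_pcore [Finite G] {p : ℕ} [Fact p.Prime] {M N Q QN : Subgroup G}
    (hPM : ∀ L : Subgroup G, L ≠ ⊥ → L ≤ M → M ≤ normalizer (L : Set G) →
      normalizer (L : Set G) ≤ M)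
    (hNM : ¬ N ≤ M)
    (hQD : Q ≤ M ⊓ N) (hMQ : M ≤ normalizer (Q : Set G)) (hpQ : IsPGroup p Q)
    (hQNN : QN ≤ N) (hNQN : N ≤ normalizer (QN : Set G)) (hpQN : IsPGroup p QN)
    (hcard : Nat.card QN = Nat.card Q)
    (hmax : ∀ Y : Subgroup G, Y ≤ M ⊓ N → IsPGroup p Y → M ⊓ N ≤ normalizer (Y : Set G) →
      Y ≤ Q) :
    Q = ⊥ := by
  by_contra hQ0
  have hNQ : normalizer (Q : Set G) ≤ M := hPM Q hQ0 (hQD.trans inf_le_left) hMQ
  have hstar : QN ⊓ M ≤ Q := by
    apply hmax
    · exact le_inf inf_le_right (inf_le_left.trans hQNN)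
    · exact hpQN.to_le inf_le_left
    · apply le_nzr_of_conj_mem
      intro c hc x hx
      exact Subgroup.mem_inf.mpr ⟨conj_mem_of_mem_nzr (hNQN hc.2) hx.1,
        M.mul_mem (M.mul_mem hc.1 hx.2) (M.inv_mem hc.1)⟩
  have hQnQN : Q ≤ normalizer (QN : Set G) := (hQD.trans inf_le_right).trans hNQN
  by_cases hle : QN ≤ Q
  · have he : QN = Q := Subgroup.eq_of_le_of_card_ge hle (le_of_eq hcard.symm)
    apply hNM
    have h1 : N ≤ normalizer (Q : Set G) := he ▸ hNQN
    exact h1.trans hNQ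
  · have hR : IsPGroup p ↥(Q ⊔ QN) := IsPGroup.to_sup_of_normal_right' hpQ hpQN hQnQN
    have hnil : Group.IsNilpotent ↥(Q ⊔ QN) := hR.isNilpotent
    have hlt : Q.subgroupOf (Q ⊔ QN) < ⊤ := by
      rw [lt_top_iff_ne_top]
      intro htop
      rw [Subgroup.subgroupOf_eq_top] at htop
      exact hle (le_sup_right.trans htop)
    have hnc : NormalizerCondition ↥(Q ⊔ QN) := Group.normalizerCondition_of_isNilpotent
    obtain ⟨r, hr1, hr2⟩ := SetLike.exists_of_lt (hnc _ hlt)
    have hrn : (r : G) ∈ normalizer (Q : Set G) := by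
      apply mem_normalizer_of_forall_conj_mem
      intro x hx
      have hxR : x ∈ Q ⊔ QN := (le_sup_left : Q ≤ Q ⊔ QN) hx
      have := (Subgroup.mem_normalizer_iff.mp hr1 ⟨x, hxR⟩).mp
        (by rw [Subgroup.mem_subgroupOf]; exact hx)
      rw [Subgroup.mem_subgroupOf] at this
      simpa using this
    have hrM : (r : G) ∈ M := hNQ hrn
    have hrmem : (r : G) ∈ ((Q ⊔ QN : Subgroup G) : Set G) := r.2
    rw [Subgroup.coe_mul_of_left_le_normalizer_right Q QN hQnQN] at hrmem
    obtain ⟨x, hx, y, hy, hxy⟩ := Set.mem_mul.mp hrmem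
    have hyM : y ∈ M := by
      have e : y = x⁻¹ * (r : G) := by rw [← hxy]; group
      rw [e]; exact M.mul_mem (M.inv_mem ((hQD.trans inf_le_left) hx)) hrM
    have hyQ : y ∈ Q := hstar ⟨hy, hyM⟩
    apply hr2
    rw [Subgroup.mem_subgroupOf, ← hxy]
    exact mul_mem hx hyQ

/-- If `O_p(M ⊓ N)` lies in every `M`-conjugate of `N` then it is trivial. -/
theorem pCore_inf_eq_bot [Finite G] {p : ℕ} [Fact p.Prime] {M N : Subgroup G}
    (hPM : ∀ L : Subgroup G, L ≠ ⊥ → L ≤ M → M ≤ normalizer (L : Set G) →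
      normalizer (L : Set G) ≤ M)
    (hNM : ¬ N ≤ M) (g : G) (hconj : N = M.map (MulAut.conj g).toMonoidHom)
    (hker : ∀ x ∈ (pCore p ↥(M ⊓ N)).map (M ⊓ N).subtype, ∀ m ∈ M, m * x * m⁻¹ ∈ N) :
    pCore p ↥(M ⊓ N) = ⊥ := by
  subst hconj
  have := H13.pCore_normal p ↥(M ⊓ M.map (MulAut.conj g).toMonoidHom)
  have := H13.pCore_normal p ↥(coreIn (M ⊓ M.map (MulAut.conj g).toMonoidHom) M)
  have hpQ : IsPGroup p ↥((pCore p ↥(M ⊓ M.map (MulAut.conj g).toMonoidHom)).map
      (M ⊓ M.map (MulAut.conj g).toMonoidHom).subtype) := (H13.pCore_isPGroup p _).map _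
  have hQD : (pCore p ↥(M ⊓ M.map (MulAut.conj g).toMonoidHom)).map
      (M ⊓ M.map (MulAut.conj g).toMonoidHom).subtype ≤ M ⊓ M.map (MulAut.conj g).toMonoidHom :=
    Subgroup.map_subtype_le _
  have hDQ : M ⊓ M.map (MulAut.conj g).toMonoidHom ≤ normalizer
      (((pCore p ↥(M ⊓ M.map (MulAut.conj g).toMonoidHom)).map
      (M ⊓ M.map (MulAut.conj g).toMonoidHom).subtype : Subgroup G) : Set G) :=
    le_nzr_map_subtype _ _
  have hA₁D : coreIn (M ⊓ M.map (MulAut.conj g).toMonoidHom) M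
      ≤ M ⊓ M.map (MulAut.conj g).toMonoidHom := coreIn_le_left _ _
  have hMA₁ : M ≤ normalizer ((coreIn (M ⊓ M.map (MulAut.conj g).toMonoidHom) M : Subgroup G)
      : Set G) := le_normalizer_coreIn _ _
  have hQA₁ : (pCore p ↥(M ⊓ M.map (MulAut.conj g).toMonoidHom)).map
      (M ⊓ M.map (MulAut.conj g).toMonoidHom).subtype
      ≤ coreIn (M ⊓ M.map (MulAut.conj g).toMonoidHom) M := by
    intro x hx
    apply mem_coreIn (hQD hx).1
    intro m hm
    exact ⟨M.mul_mem (M.mul_mem hm (hQD hx).1) (M.inv_mem hm), hker x hx m hm⟩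
  have h1 := le_pCoreOf_of_normal_normal hQA₁ le_rfl hpQ (hA₁D.trans hDQ) Subgroup.le_normalizer
  have h2 := le_pCoreOf_of_normal_normal (p := p) (Subgroup.map_subtype_le _) hA₁D
    ((H13.pCore_isPGroup p ↥(coreIn (M ⊓ M.map (MulAut.conj g).toMonoidHom) M)).map _)
    (le_nzr_map_subtype (coreIn (M ⊓ M.map (MulAut.conj g).toMonoidHom) M) _)
    (inf_le_left.trans hMA₁)
  have hQeq := le_antisymm h1 h2
  have hMQ : M ≤ normalizer (((pCore p ↥(M ⊓ M.map (MulAut.conj g).toMonoidHom)).map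
      (M ⊓ M.map (MulAut.conj g).toMonoidHom).subtype : Subgroup G) : Set G) := by
    rw [hQeq]
    exact hMA₁.trans (H27.normalizer_le_normalizer_radIn (H27.isoInv_pGroup p) _)
  have hQ0 : (pCore p ↥(M ⊓ M.map (MulAut.conj g).toMonoidHom)).map
      (M ⊓ M.map (MulAut.conj g).toMonoidHom).subtype = ⊥ := by
    apply eq_bot_of_normal_pcore
      (QN := ((pCore p ↥(M ⊓ M.map (MulAut.conj g).toMonoidHom)).map
      (M ⊓ M.map (MulAut.conj g).toMonoidHom).subtype).map (MulAut.conj g).toMonoidHom)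
      hPM hNM hQD hMQ hpQ
    · exact Subgroup.map_mono (hQD.trans inf_le_left)
    · exact (Subgroup.map_mono hMQ).trans (Subgroup.le_normalizer_map _)
    · exact hpQ.map _
    · exact Subgroup.card_map_of_injective (MulAut.conj g).injective
    · intro Y hY hpY hn
      exact le_pCoreOf_of_normal_normal hY le_rfl hpY hn Subgroup.le_normalizer
  rwa [Subgroup.map_eq_bot_iff_of_injective _ (Subgroup.subtype_injective _)] at hQ0

/-- **Fitting-free subconstituent**: the two-point stabilizer has trivial Fitting subgroup and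
`|G_a|` divides `d! ((d-1)!)^d`. -/
theorem tw_fitting_free [Finite G] {Ω : Type v} [MulAction G Ω] [FaithfulSMul G Ω] [Finite Ω]
    (hprim : MulAction.IsPreprimitive G Ω) (a b : Ω) (d : ℕ)
    (hd : Nat.card (MulAction.orbit (MulAction.stabilizer G a) b) = d) (h2 : 2 ≤ d)
    (hF : fittingSubgroup ↥(((MulAction.stabilizer G b).subgroupOf (MulAction.stabilizer G a)).map
      (MulAction.toPermHom (MulAction.stabilizer G a)
        (MulAction.orbit (MulAction.stabilizer G a) b))) = ⊥) :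
    fittingSubgroup ↥(MulAction.stabilizer G a ⊓ MulAction.stabilizer G b) = ⊥ ∧
      Nat.card (MulAction.stabilizer G a) ∣ d ! * ((d - 1)!) ^ d := by
  obtain ⟨hmax, hcore, ⟨g, hg⟩, hne, hrel⟩ :=
    tw_action_setup hprim a b (by rw [hd]; exact h2)
  have hmax2 : IsCoatom (MulAction.stabilizer G b) := hg ▸ isCoatom_map_conj hmax g
  have hPM := prim_of_coatom hmax hcore
  have hNM : ¬ MulAction.stabilizer G b ≤ MulAction.stabilizer G a :=
    fun h => hne ((hmax2.le_iff_eq hmax.1).mp h)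
  have hp0 : ∀ p : ℕ, p.Prime →
      pCore p ↥(MulAction.stabilizer G a ⊓ MulAction.stabilizer G b) = ⊥ := by
    intro p hp
    have : Fact p.Prime := ⟨hp⟩
    have := H13.pCore_normal p ↥(MulAction.stabilizer G a ⊓ MulAction.stabilizer G b)
    apply pCore_inf_eq_bot hPM hNM g hg
    intro x hx m hm
    have hpQ : IsPGroup p ↥((pCore p ↥(MulAction.stabilizer G a ⊓ MulAction.stabilizer G b)).map
        (MulAction.stabilizer G a ⊓ MulAction.stabilizer G b).subtype) :=
      (H13.pCore_isPGroup p _).map _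
    have hQD : (pCore p ↥(MulAction.stabilizer G a ⊓ MulAction.stabilizer G b)).map
        (MulAction.stabilizer G a ⊓ MulAction.stabilizer G b).subtype
        ≤ MulAction.stabilizer G a ⊓ MulAction.stabilizer G b := Subgroup.map_subtype_le _
    have hDQ : MulAction.stabilizer G a ⊓ MulAction.stabilizer G b ≤ normalizer
        (((pCore p ↥(MulAction.stabilizer G a ⊓ MulAction.stabilizer G b)).map
        (MulAction.stabilizer G a ⊓ MulAction.stabilizer G b).subtype : Subgroup G) : Set G) :=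
      le_nzr_map_subtype _ _
    have hle := le_ker_of_fitting_map_eq_bot (p := p)
      (MulAction.toPermHom (MulAction.stabilizer G a)
        (MulAction.orbit (MulAction.stabilizer G a) b))
      (Q' := ((pCore p ↥(MulAction.stabilizer G a ⊓ MulAction.stabilizer G b)).map
        (MulAction.stabilizer G a ⊓ MulAction.stabilizer G b).subtype).subgroupOf
          (MulAction.stabilizer G a))
      (D' := (MulAction.stabilizer G b).subgroupOf (MulAction.stabilizer G a))
      (fun y hy => (hQD hy).2)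
      (by
        intro y hy
        apply Subgroup.le_normalizer_comap
        exact hDQ ⟨y.2, hy⟩)
      hpQ.comap_subtype hF
    have hxM : x ∈ MulAction.stabilizer G a := (hQD hx).1
    have hxk := hle (show (⟨x, hxM⟩ : ↥(MulAction.stabilizer G a)) ∈ _ from hx)
    rw [MonoidHom.mem_ker] at hxk
    have hpt : (⟨m⁻¹, inv_mem hm⟩ : ↥(MulAction.stabilizer G a)) • b
        ∈ MulAction.orbit (MulAction.stabilizer G a) b := MulAction.mem_orbit _ _
    have h3 := congrArg (fun σ => ((σ ⟨_, hpt⟩ :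
      ↥(MulAction.orbit (MulAction.stabilizer G a) b)) : Ω)) hxk
    simp only [MulAction.toPermHom_apply, MulAction.toPerm_apply, Equiv.Perm.coe_one, id_eq] at h3
    have h4 : x • (m⁻¹ • b) = m⁻¹ • b := h3
    rw [MulAction.mem_stabilizer_iff, mul_smul, mul_smul, h4, smul_inv_smul]
  have hFD : fittingSubgroup ↥(MulAction.stabilizer G a ⊓ MulAction.stabilizer G b) = ⊥ := by
    rw [H27.fitting_eq_pCoreJoin]
    unfold H27.pCoreJoin
    rw [iSup_eq_bot]
    rintro ⟨q, hq⟩
    exact hp0 q (Nat.prime_of_mem_primeFactors hq)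
  refine ⟨hFD, ?_⟩
  rcases tw_alt hmax hcore g hg hne with ⟨p, hp, -, hFA, hA0⟩ | h
  · exfalso
    have : Fact p.Prime := ⟨hp⟩
    have h1 : pCore p ↥(coreIn (MulAction.stabilizer G a ⊓ MulAction.stabilizer G b)
        (MulAction.stabilizer G a)) = ⊥ :=
      pCore_eq_bot_of_normal (coreIn_le_left _ _)
        (inf_le_left.trans (le_normalizer_coreIn _ _)) (hp0 p hp)
    have : Nontrivial ↥(coreIn (MulAction.stabilizer G a ⊓ MulAction.stabilizer G b)
        (MulAction.stabilizer G a)) := (Subgroup.nontrivial_iff_ne_bot _).mpr hA0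
    exact genFitting_ne_bot (hFA.trans h1)
  · rw [hrel, hd] at h
    exact h

end Cfsg.Agent.H56.TW
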