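import Mathlib
import Cfsg.Agent.H56.TWE

set_option autoImplicit false

/-!
# Wielandt's bound toward the Sims conjecture (helper56, for S3682)
-/

namespace Cfsg.Agent.H56.TW

open Cfsg Subgroup
open scoped Nat

universe u v

variable {G : Type u} [Group G]

/-- **Wielandt's bound.** For two distinct conjugate core-free maximal subgroups `M`, `N` with
`d = |M : M ∩ N|` there is a normal `p`-subgroup `P` of `M` inside `M ∩ N` with `|M : P|` dividing
`d! ((d-1)!)^d`. -/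
theorem tw_wielandt_bound [Finite G] {M N : Subgroup G} (hmax : IsCoatom M)
    (hcore : M.normalCore = ⊥) (g : G) (hconj : N = M.map (MulAut.conj g).toMonoidHom)
    (hne : M ≠ N) :
    ∃ p : ℕ, p.Prime ∧ ∃ P : Subgroup G, P ≤ M ⊓ N ∧ M ≤ normalizer (P : Set G) ∧ IsPGroup p P ∧
      P.relIndex M ∣ ((M ⊓ N).relIndex M)! * (((M ⊓ N).relIndex M - 1)!) ^ ((M ⊓ N).relIndex M) := by
  have hmax2 : IsCoatom N := hconj ▸ isCoatom_map_conj hmax g
  have hcore2 : N.normalCore = ⊥ := hconj ▸ normalCore_map_conj hcore g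
  have hPM := prim_of_coatom hmax hcore
  have hPN := prim_of_coatom hmax2 hcore2
  have hMN : ¬ M ≤ N := fun h => hne ((hmax.le_iff_eq hmax2.1).mp h).symm
  have hNM : ¬ N ≤ M := fun h => hne ((hmax2.le_iff_eq hmax.1).mp h)
  have e : ↥M ≃* ↥N :=
    (Subgroup.equivMapOfInjective M (MulAut.conj g).toMonoidHom (MulAut.conj g).injective).trans
      (MulEquiv.subgroupCongr hconj.symm)
  have hcardMN : Nat.card M = Nat.card N := Nat.card_congr e.toEquiv
  have hrel : (M ⊓ N).relIndex N = (M ⊓ N).relIndex M := by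
    have h1 := card_mul_relIndex' (inf_le_left : M ⊓ N ≤ M)
    have h2 := card_mul_relIndex' (inf_le_right : M ⊓ N ≤ N)
    rw [← hcardMN, ← h1] at h2
    exact Nat.eq_of_mul_eq_mul_left Nat.card_pos h2
  have hbot : Nat.card M ∣ ((M ⊓ N).relIndex M)! * (((M ⊓ N).relIndex M - 1)!) ^ ((M ⊓ N).relIndex M) →
      ∃ p : ℕ, p.Prime ∧ ∃ P : Subgroup G, P ≤ M ⊓ N ∧ M ≤ normalizer (P : Set G) ∧ IsPGroup p P ∧
      P.relIndex M ∣ ((M ⊓ N).relIndex M)! * (((M ⊓ N).relIndex M - 1)!) ^ ((M ⊓ N).relIndex M) := by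
    intro h
    refine ⟨2, Nat.prime_two, ⊥, bot_le, ?_, IsPGroup.of_bot, ?_⟩
    · intro m _
      rw [Subgroup.mem_normalizer_iff]
      intro x
      simp [Subgroup.mem_bot]
    · rw [Subgroup.relIndex_bot_left]; exact h
  by_cases hA₂0 : coreIn (coreIn (M ⊓ N) M ⊓ coreIn (M ⊓ N) N) M = ⊥
  · apply hbot
    have := card_dvd_of_second_core_eq_bot (M := M) (N := N) rfl rfl rfl hA₂0
    rwa [hrel] at this
  by_cases hB₂0 : coreIn (coreIn (M ⊓ N) M ⊓ coreIn (M ⊓ N) N) N = ⊥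
  · apply hbot
    have h1 : coreIn (M ⊓ N) N = coreIn (N ⊓ M) N := by rw [inf_comm]
    have h2 : coreIn (M ⊓ N) M = coreIn (N ⊓ M) M := by rw [inf_comm]
    have h3 : coreIn (coreIn (M ⊓ N) M ⊓ coreIn (M ⊓ N) N) N
        = coreIn (coreIn (M ⊓ N) N ⊓ coreIn (M ⊓ N) M) N := by rw [inf_comm]
    have := card_dvd_of_second_core_eq_bot (M := N) (N := M) h1 h2 h3 hB₂0
    rwa [inf_comm, hrel, ← hcardMN] at this
  · obtain ⟨p, hp, hsup, -, -, -, -⟩ :=
      tw_main hPM hPN hMN hNM e rfl rfl rfl rfl hA₂0 hB₂0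
    refine ⟨p, hp, coreIn (coreIn (M ⊓ N) M ⊓ coreIn (M ⊓ N) N) M,
      ((coreIn_le_left _ _).trans inf_le_left).trans (coreIn_le_left _ _),
      le_normalizer_coreIn _ _, hsup.to_le le_sup_left, ?_⟩
    have hA₂A : coreIn (coreIn (M ⊓ N) M ⊓ coreIn (M ⊓ N) N) M ≤ coreIn (M ⊓ N) M :=
      (coreIn_le_left _ _).trans inf_le_left
    have hA₁M : coreIn (M ⊓ N) M ≤ M := coreIn_le_right _ _
    rw [← Subgroup.relIndex_mul_relIndex _ _ _ hA₂A hA₁M, mul_comm]
    have h1 := relIndex_second_core_dvd (M := M) (N := N) rfl rfl rfl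
    rw [hrel] at h1
    exact Nat.mul_dvd_mul (relIndex_coreIn_dvd _ _) h1

end Cfsg.Agent.H56.TW
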